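import Cfsg.Agent.Lib.Coprime.Action
import Cfsg.Agent.Lib.Involution.Basic
import Mathlib.GroupTheory.Coset.Card

/-!
A trivial intersection subgroup `M` with an inverting involution and more involutions than cosets:
every coset of `M` outside the normaliser contains exactly one involution (helper3).
-/

set_option autoImplicit false

namespace Cfsg.Agent.Lib.TICount

universe u

variable {G : Type u} [Group G]

/-- The normaliser of `M`. -/
abbrev Nrm (M : Subgroup G) : Subgroup G := Subgroup.normalizer (M : Set G)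

/-- The centraliser of `z` in the normaliser of `M`. -/
abbrev Hc (M : Subgroup G) (z : G) : Subgroup G := Nrm M ⊓ Subgroup.centralizer ({z} : Set G)

/-- The configuration: more involutions than cosets of `M`. -/
structure Hyp (M : Subgroup G) (z : G) : Prop where
  ne : M ≠ ⊥
  ti : ∀ g : G, M ⊓ M.map (MulAut.conj g).toMonoidHom ≠ ⊥ →
    M.map (MulAut.conj g).toMonoidHom = M
  hz : orderOf z = 2
  zN : z ∈ Nrm M
  fac : M ⊔ Hc M z = Nrm M
  odd : ∀ x ∈ M, x ≠ 1 → Odd (Nat.card (Subgroup.centralizer ({x} : Set G)))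
  notN : ¬ M.Normal
  big : M.index < Nat.card {g : G // orderOf g = 2}

variable {M : Subgroup G} {z : G}

theorem mul_self {v : G} (hv : orderOf v = 2) : v * v = 1 := Involution.mul_self hv

theorem inv_self {v : G} (hv : orderOf v = 2) : v⁻¹ = v := inv_eq_of_mul_eq_one_right (mul_self hv)

theorem ne_one {v : G} (hv : orderOf v = 2) : v ≠ 1 := fun e => by
  rw [e, orderOf_one] at hv; omega

theorem order_two {v : G} (h1 : v ≠ 1) (h2 : v * v = 1) : orderOf v = 2 :=
  orderOf_eq_prime (by rwa [pow_two]) h1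

theorem order_conj {v : G} (hv : orderOf v = 2) (y : G) : orderOf (y * v * y⁻¹) = 2 := by
  rw [Involution.orderOf_conj]; exact hv

namespace Hyp

variable (h : Hyp M z)
include h

theorem conj_mem {g x : G} (hg : g ∈ Nrm M) (hx : x ∈ M) : g * x * g⁻¹ ∈ M :=
  (Subgroup.mem_normalizer_iff.1 hg x).1 hx

theorem conj_mem' {g x : G} (hg : g ∈ Nrm M) (hx : x ∈ M) : g⁻¹ * x * g ∈ M := by
  simpa using h.conj_mem (inv_mem hg) hx

theorem mem_H {g : G} : g ∈ Hc M z ↔ g ∈ Nrm M ∧ g * z = z * g :=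
  and_congr_right fun _ => Subgroup.mem_centralizer_singleton_iff

theorem z_mem_H : z ∈ Hc M z := h.mem_H.2 ⟨h.zN, rfl⟩

variable [Finite G]

theorem odd_order {x : G} (hx : x ∈ M) : Odd (orderOf x) := by
  by_cases hx1 : x = 1
  · rw [hx1, orderOf_one]; exact odd_one
  refine Odd.of_dvd_nat (h.odd x hx hx1) ?_
  rw [← Subgroup.orderOf_mk x (Subgroup.mem_centralizer_singleton_iff.2 rfl)]
  exact orderOf_dvd_natCard _

theorem no_invol_cent {x v : G} (hx : x ∈ M) (hx1 : x ≠ 1) (hv : orderOf v = 2)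
    (hc : v * x = x * v) : False := by
  have h1 := orderOf_dvd_natCard
    (⟨v, Subgroup.mem_centralizer_singleton_iff.2 hc⟩ : Subgroup.centralizer ({x} : Set G))
  rw [Subgroup.orderOf_mk, hv] at h1
  exact Nat.not_even_iff_odd.2 (h.odd x hx hx1) (even_iff_two_dvd.2 h1)

theorem invol_not_mem {v : G} (hv : orderOf v = 2) : v ∉ M := fun hm =>
  h.no_invol_cent hm (ne_one hv) hv rfl

theorem eq_one_of_sq {x : G} (hx : x ∈ M) (h2 : x * x = 1) : x = 1 := by
  by_contra h1
  exact h.invol_not_mem (order_two h1 h2) hx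

theorem inverts {v : G} (hv : orderOf v = 2) (hvN : v ∈ Nrm M) {x : G} (hx : x ∈ M) :
    v * x * v = x⁻¹ := by
  have hmem : ∀ y : M, v * (y : G) * v ∈ M := fun y => by
    have := h.conj_mem hvN y.2
    rwa [inv_self hv] at this
  let f : M → M := fun y => ⟨(y : G)⁻¹ * (v * y * v), mul_mem (inv_mem y.2) (hmem y)⟩
  have hf : Function.Injective f := by
    intro a b e
    have e' : (a : G)⁻¹ * (v * a * v) = (b : G)⁻¹ * (v * b * v) := congrArg Subtype.val e
    by_contra hab
    refine h.no_invol_cent (mul_mem a.2 (inv_mem b.2))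
      (fun e1 => hab (Subtype.ext (mul_inv_eq_one.1 e1))) hv ?_
    calc v * ((a : G) * (b : G)⁻¹) = (a : G) * ((a : G)⁻¹ * (v * a * v)) * v⁻¹ * (b : G)⁻¹ := by group
      _ = (a : G) * ((b : G)⁻¹ * (v * b * v)) * v⁻¹ * (b : G)⁻¹ := by rw [e']
      _ = _ := by group
  obtain ⟨y, hy⟩ := Finite.surjective_of_injective hf ⟨x, hx⟩
  have hy' : (y : G)⁻¹ * (v * y * v) = x := congrArg Subtype.val hy
  rw [← hy']
  calc v * ((y : G)⁻¹ * (v * y * v)) * v = v * (y : G)⁻¹ * v * y * (v * v) := by group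
    _ = v⁻¹ * (y : G)⁻¹ * v⁻¹ * y := by rw [mul_self hv, mul_one, inv_self hv]
    _ = _ := by group

theorem z_inv {x : G} (hx : x ∈ M) : z * x * z = x⁻¹ := h.inverts h.hz h.zN hx

theorem z_mul {x : G} (hx : x ∈ M) : z * x = x⁻¹ * z := by
  rw [← h.z_inv hx, mul_assoc (z * x), mul_self h.hz, mul_one]

theorem comm {a b : G} (ha : a ∈ M) (hb : b ∈ M) : a * b = b * a := by
  have e : (a * b)⁻¹ = a⁻¹ * b⁻¹ := by
    rw [← h.z_inv (mul_mem ha hb), ← h.z_inv ha, ← h.z_inv hb,
      show z * a * z * (z * b * z) = z * a * (z * z) * b * z by group, mul_self h.hz, mul_one]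
    group
  simpa using congrArg (·⁻¹) e

theorem exists_sqrt {a : G} (ha : a ∈ M) : ∃ b ∈ M, b * b = a := by
  obtain ⟨i, hi⟩ := h.odd_order ha
  refine ⟨a ^ (i + 1), pow_mem ha _, ?_⟩
  rw [← pow_add, show i + 1 + (i + 1) = (2 * i + 1) + 1 by ring, ← hi, pow_succ,
    pow_orderOf_eq_one, one_mul]

theorem disj {x : G} (hx : x ∈ M) (hH : x ∈ Hc M z) : x = 1 :=
  by_contra fun hx1 => h.no_invol_cent hx hx1 h.hz (h.mem_H.1 hH).2.symm

theorem decomp {g : G} (hg : g ∈ Nrm M) : ∃ a ∈ M, ∃ b ∈ Hc M z, g = a * b := by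
  have hg' : g⁻¹ ∈ Hc M z ⊔ M := by rw [sup_comm, h.fac]; exact inv_mem hg
  obtain ⟨b, hb, a, ha, hba⟩ := (Coprime.mem_sup_of_le_normalizer inf_le_left).1 hg'
  exact ⟨a⁻¹, inv_mem ha, b⁻¹, inv_mem hb, by rw [← mul_inv_rev, hba, inv_inv]⟩

theorem invol_mem_N {v : G} (hv : orderOf v = 2) (hvN : v ∈ Nrm M) : ∃ a ∈ M, v = a * z := by
  -- `v * z` centralises `M`
  obtain ⟨a, ha, b, hb, hab⟩ := h.decomp (mul_mem hvN h.zN)
  have hbz : b * z = z * b := (h.mem_H.1 hb).2
  have hbc : ∀ x ∈ M, b * x = x * b := by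
    intro x hx
    have h1 : v * z * x = x * (v * z) := by
      calc v * z * x = v * (z * x) := mul_assoc _ _ _
        _ = v * x⁻¹ * v * (v⁻¹ * z) := by rw [h.z_mul hx]; group
        _ = x * (v * z) := by rw [h.inverts hv hvN (inv_mem hx), inv_inv, inv_self hv]
    rw [hab] at h1
    refine mul_left_cancel (a := a) ?_
    rw [← mul_assoc, ← mul_assoc, h1, ← mul_assoc, h.comm hx ha]
  have hv' : v = a * b * z := by rw [← hab, mul_assoc, mul_self h.hz, mul_one]
  have hbb : b * b = 1 := by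
    have h2 : a * b * z * (a * b * z) = 1 := by rw [← hv']; exact mul_self hv
    calc b * b = a * b * a⁻¹ * b * (z * z) := by
          rw [mul_self h.hz, mul_one, ← hbc a ha, mul_inv_cancel_right]
      _ = a * b * a⁻¹ * (b * z) * z := by group
      _ = a * b * a⁻¹ * (z * b) * z := by rw [hbz]
      _ = a * b * (a⁻¹ * z) * b * z := by group
      _ = a * b * (z * a) * b * z := by rw [h.z_mul ha]
      _ = a * b * z * (a * b * z) := by group
      _ = 1 := h2
  refine ⟨a, ha, ?_⟩
  by_cases hb1 : b = 1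
  · rw [hv', hb1, mul_one]
  exfalso
  obtain ⟨x, hx, hx1⟩ := (Subgroup.bot_or_exists_ne_one M).resolve_left h.ne
  exact h.no_invol_cent hx hx1 (order_two hb1 hbb) (hbc x hx)

theorem az_invol {a : G} (ha : a ∈ M) : orderOf (a * z) = 2 := by
  refine order_two (fun e => h.invol_not_mem h.hz ?_) ?_
  · rw [eq_inv_of_mul_eq_one_right e]; exact inv_mem ha
  · calc a * z * (a * z) = a * (z * a * z) := by group
      _ = 1 := by rw [h.z_inv ha, mul_inv_cancel]

theorem coset_unique {g u v : G} (hg : g ∉ Nrm M) (hu : orderOf u = 2) (hv : orderOf v = 2)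
    (hgu : g⁻¹ * u ∈ M) (hgv : g⁻¹ * v ∈ M) : u = v := by
  by_contra hne
  have hd : u * v ∈ M := by
    have : u * v = (g⁻¹ * u)⁻¹ * (g⁻¹ * v) := by
      rw [show (g⁻¹ * u)⁻¹ * (g⁻¹ * v) = u⁻¹ * v by group, inv_self hu]
    rw [this]
    exact mul_mem (inv_mem hgu) hgv
  have hd1 : u * v ≠ 1 := fun e => hne (by rw [eq_inv_of_mul_eq_one_left e, inv_self hv])
  have hmem : u * v ∈ M ⊓ M.map (MulAut.conj u).toMonoidHom :=
    ⟨hd, (u * v)⁻¹, inv_mem hd, by
      show u * (u * v)⁻¹ * u⁻¹ = u * v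
      rw [mul_inv_rev, inv_self hu, inv_self hv, mul_assoc, mul_assoc, mul_self hu, mul_one]⟩
  have hM := h.ti u fun e => hd1 (by rw [e] at hmem; exact Subgroup.mem_bot.1 hmem)
  refine hg ?_
  have huN : u ∈ Nrm M := by
    refine Subgroup.mem_normalizer_iff.2 fun y => ⟨fun hy => hM ▸ ⟨y, hy, rfl⟩, fun hy => ?_⟩
    rw [← hM] at hy
    obtain ⟨w, hw, hwy⟩ := hy
    have hwy' : u * w * u⁻¹ = u * y * u⁻¹ := hwy
    rw [← mul_left_cancel (mul_right_cancel hwy')]
    exact hw
  have := mul_mem huN (Subgroup.le_normalizer (inv_mem hgu))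
  rwa [mul_inv_rev, inv_inv, ← mul_assoc, mul_inv_cancel, one_mul] at this

theorem card_N : Nat.card (Nrm M) = Nat.card M * Nat.card (Hc M z) := by
  have h1 := Coprime.card_sup_mul_card_inf_of_le_normalizer (A := Hc M z) (N := M) inf_le_left
  rw [sup_comm, h.fac, show Hc M z ⊓ M = ⊥ from
    (Subgroup.eq_bot_iff_forall _).2 fun x hx => h.disj hx.2 hx.1,
    Subgroup.card_bot, mul_one] at h1
  rw [h1, mul_comm]

theorem card_I_N : Nat.card {v : G // orderOf v = 2 ∧ v ∈ Nrm M} = Nat.card M := by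
  refine (Nat.card_eq_of_bijective (fun a : M => (⟨(a : G) * z, h.az_invol a.2,
    mul_mem (Subgroup.le_normalizer a.2) h.zN⟩ : {v : G // orderOf v = 2 ∧ v ∈ Nrm M}))
    ⟨fun a b e => Subtype.ext (mul_right_cancel (congrArg Subtype.val e)), ?_⟩).symm
  rintro ⟨v, hv, hvN⟩
  obtain ⟨a, ha, rfl⟩ := h.invol_mem_N hv hvN
  exact ⟨⟨a, ha⟩, rfl⟩

/-- The counting: every coset outside the normaliser contains an involution, and `|H| < |M|`. -/
theorem counting :
    (∀ g ∉ Nrm M, ∃ u, orderOf u = 2 ∧ g⁻¹ * u ∈ M) ∧ Nat.card (Hc M z) < Nat.card M ∧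
      Nat.card {g : G // orderOf g = 2} + Nat.card (Hc M z) = Nat.card M + M.index := by
  classical
  haveI := Fintype.ofFinite G
  set m := Nat.card M with hm
  set k := Nat.card (Hc M z)
  set Out := Finset.univ.filter fun g : G => g ∉ Nrm M with hOut
  set Inv := Finset.univ.filter fun g : G => orderOf g = 2 with hInv
  set IO := Finset.univ.filter fun g : G => orderOf g = 2 ∧ g ∉ Nrm M with hIO
  set Cov := Out.filter fun g : G => ∃ u, orderOf u = 2 ∧ g⁻¹ * u ∈ M with hCov
  set X := Out.filter fun g : G => ¬ ∃ u, orderOf u = 2 ∧ g⁻¹ * u ∈ M with hX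
  set Mf := Finset.univ.filter fun g : G => g ∈ M with hMf
  have hMc : Mf.card = m := by
    rw [hm, Nat.card_eq_fintype_card, Fintype.card_subtype]
  have hNc : (Finset.univ.filter fun g : G => g ∈ Nrm M).card = m * k := by
    rw [← h.card_N, Nat.card_eq_fintype_card, Fintype.card_subtype]
  have hOc : Out.card + m * k = m * M.index := by
    rw [← hNc, add_comm, Finset.card_filter_add_card_filter_not, Finset.card_univ,
      ← Nat.card_eq_fintype_card, ← M.card_mul_index]
  have hIc : IO.card + m = Nat.card {g : G // orderOf g = 2} := by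
    have h1 : (Finset.univ.filter fun g : G => orderOf g = 2 ∧ g ∈ Nrm M).card = m := by
      rw [hm, ← h.card_I_N, Nat.card_eq_fintype_card, Fintype.card_subtype]
    rw [← h1, Nat.card_eq_fintype_card, Fintype.card_subtype, hIO,
      ← Finset.filter_filter, ← Finset.filter_filter, add_comm,
      Finset.card_filter_add_card_filter_not]
  have hCc : Cov.card = IO.card * m := by
    rw [← hMc, ← Finset.card_product]
    refine (Finset.card_bij (fun p _ => p.1 * p.2) ?_ ?_ ?_).symm
    · rintro ⟨u, a⟩ hp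
      simp only [Finset.mem_product, hIO, hMf, Finset.mem_filter, Finset.mem_univ, true_and] at hp
      obtain ⟨⟨hu, huN⟩, ha⟩ := hp
      simp only [hCov, hOut, Finset.mem_filter, Finset.mem_univ, true_and]
      exact ⟨fun hc => huN ((Subgroup.mul_mem_cancel_right _ (Subgroup.le_normalizer ha)).1 hc),
        u, hu, by rw [mul_inv_rev, mul_assoc, inv_mul_cancel, mul_one]; exact inv_mem ha⟩
    · rintro ⟨u, a⟩ hp ⟨v, b⟩ hq e
      simp only [Finset.mem_product, hIO, hMf, Finset.mem_filter, Finset.mem_univ, true_and] at hp hq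
      obtain ⟨⟨hu, huN⟩, ha⟩ := hp
      obtain ⟨⟨hv, -⟩, hb⟩ := hq
      simp only at e
      have huv : u = v := h.coset_unique huN hu hv (by rw [inv_mul_cancel]; exact one_mem M) (by
        rw [show u⁻¹ * v = a * b⁻¹ by
          rw [eq_mul_inv_iff_mul_eq, mul_assoc, inv_mul_eq_iff_eq_mul, e]]
        exact mul_mem ha (inv_mem hb))
      subst huv
      rw [mul_left_cancel e]
    · intro g hg
      simp only [hCov, hOut, Finset.mem_filter, Finset.mem_univ, true_and] at hg
      obtain ⟨hgN, u, hu, hgu⟩ := hg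
      refine ⟨(u, (g⁻¹ * u)⁻¹), ?_, by group⟩
      simp only [Finset.mem_product, hIO, hMf, Finset.mem_filter, Finset.mem_univ, true_and]
      refine ⟨⟨hu, fun hc => hgN ?_⟩, inv_mem hgu⟩
      have := mul_mem hc (Subgroup.le_normalizer (inv_mem hgu))
      rwa [mul_inv_rev, inv_inv, ← mul_assoc, mul_inv_cancel, one_mul] at this
  have hsum : Cov.card + X.card = Out.card := Finset.card_filter_add_card_filter_not _
  have hXbig : X.Nonempty → m * m ≤ X.card := by
    rintro ⟨g, hg⟩
    simp only [hX, hOut, Finset.mem_filter, Finset.mem_univ, true_and] at hg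
    obtain ⟨hgN, hno⟩ := hg
    rw [← hMc, ← Finset.card_product]
    refine Finset.card_le_card_of_injOn (fun p => p.1 * g * p.2) ?_ ?_
    · rintro ⟨a, b⟩ hp
      simp only [Finset.coe_product, Set.mem_prod, Finset.mem_coe, hMf, Finset.mem_filter,
        Finset.mem_univ, true_and] at hp
      simp only [Finset.mem_coe, hX, hOut, Finset.mem_filter, Finset.mem_univ, true_and]
      refine ⟨fun hc => hgN ?_, fun ⟨u, hu, hgu⟩ => hno ⟨a⁻¹ * u * a, ?_, ?_⟩⟩
      · exact (Subgroup.mul_mem_cancel_left _ (Subgroup.le_normalizer hp.1)).1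
          ((Subgroup.mul_mem_cancel_right _ (Subgroup.le_normalizer hp.2)).1 hc)
      · have := order_conj hu a⁻¹
        rwa [inv_inv] at this
      · rw [show g⁻¹ * (a⁻¹ * u * a) = b * ((a * g * b)⁻¹ * u) * a by group]
        exact mul_mem (mul_mem hp.2 hgu) hp.1
    · rintro ⟨a, b⟩ hp ⟨a', b'⟩ hq e
      simp only [Finset.coe_product, Set.mem_prod, Finset.mem_coe, hMf, Finset.mem_filter,
        Finset.mem_univ, true_and] at hp hq
      simp only at e
      have h1 : g⁻¹ * (a'⁻¹ * a) * g = b' * b⁻¹ := by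
        rw [eq_mul_inv_iff_mul_eq,
          show g⁻¹ * (a'⁻¹ * a) * g * b = g⁻¹ * a'⁻¹ * (a * g * b) by group, e]
        group
      have haa : a'⁻¹ * a = 1 := by
        by_contra hne
        have hmem : a'⁻¹ * a ∈ M ⊓ M.map (MulAut.conj g).toMonoidHom :=
          ⟨M.mul_mem (M.inv_mem hq.1) hp.1, b' * b⁻¹, M.mul_mem hq.2 (M.inv_mem hp.2), by
            show g * (b' * b⁻¹) * g⁻¹ = a'⁻¹ * a
            rw [← h1]; group⟩
        have hM := h.ti g fun e0 => hne (by rw [e0] at hmem; exact Subgroup.mem_bot.1 hmem)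
        refine hgN (Subgroup.mem_normalizer_iff.2 fun y => ⟨fun hy => hM ▸ ⟨y, hy, rfl⟩, fun hy => ?_⟩)
        rw [← hM] at hy
        obtain ⟨w, hw, hwy⟩ := hy
        have hwy' : g * w * g⁻¹ = g * y * g⁻¹ := hwy
        rw [← mul_left_cancel (mul_right_cancel hwy')]
        exact hw
      rw [haa, mul_one, inv_mul_cancel, eq_mul_inv_iff_mul_eq, one_mul] at h1
      rw [inv_mul_eq_one] at haa
      rw [← haa, h1]
  have hmpos : 0 < m := Nat.card_pos
  have hbig := h.big
  rcases X.eq_empty_or_nonempty with hXe | hXn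
  · rw [hXe, Finset.card_empty, add_zero, hCc] at hsum
    have hkey : IO.card + k = M.index := by
      apply Nat.eq_of_mul_eq_mul_left hmpos
      rw [mul_add, mul_comm m IO.card, hsum]
      exact hOc
    refine ⟨fun g hg => ?_, by omega, by omega⟩
    by_contra hno
    have : g ∈ X := by
      simp only [hX, hOut, Finset.mem_filter, Finset.mem_univ, true_and]
      exact ⟨hg, hno⟩
    rw [hXe] at this
    exact Finset.notMem_empty g this
  · exfalso
    have h1 := hXbig hXn
    have h2 : m * (IO.card + m + k) ≤ m * M.index := by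
      rw [mul_add, mul_add, mul_comm m IO.card, ← hCc, ← hOc, ← hsum]
      omega
    have := Nat.le_of_mul_le_mul_left h2 hmpos
    omega

theorem exists_invol {g : G} (hg : g ∉ Nrm M) : ∃ u, orderOf u = 2 ∧ g⁻¹ * u ∈ M :=
  h.counting.1 g hg

theorem invol_out {g u : G} (hg : g ∉ Nrm M) (hgu : g⁻¹ * u ∈ M) : u ∉ Nrm M := fun hc => by
  refine hg ?_
  have := mul_mem hc (Subgroup.le_normalizer (inv_mem hgu))
  rwa [mul_inv_rev, inv_inv, ← mul_assoc, mul_inv_cancel, one_mul] at this

theorem cent_le {x g : G} (hx : x ∈ M) (hx1 : x ≠ 1) (hc : g * x = x * g) : g ∈ Nrm M := by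
  by_contra hg
  obtain ⟨u, hu, hgu⟩ := h.exists_invol hg
  refine h.no_invol_cent hx hx1 hu ?_
  have e : u = g * (g⁻¹ * u) := by group
  calc u * x = g * ((g⁻¹ * u) * x) := by group
    _ = g * (x * (g⁻¹ * u)) := by rw [h.comm hgu hx]
    _ = g * x * g⁻¹ * u := by group
    _ = _ := by rw [hc]; group

/-- An element of `M` fixing a second point is trivial. -/
theorem free {g x : G} (hg : g ∉ Nrm M) (hx : x ∈ M) (hgx : g⁻¹ * x * g ∈ Nrm M) : x = 1 := by
  obtain ⟨u, hu, hgu⟩ := h.exists_invol hg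
  have huN := h.invol_out hg hgu
  set x' := u * x * u with hx'
  have hx'N : x' ∈ Nrm M := by
    have : x' = (g⁻¹ * u)⁻¹ * (g⁻¹ * x * g) * (g⁻¹ * u) := by
      rw [hx']; conv_lhs => arg 1; arg 1; rw [← inv_self hu]
      group
    rw [this]
    exact mul_mem (mul_mem (inv_mem (Subgroup.le_normalizer hgu)) hgx) (Subgroup.le_normalizer hgu)
  -- an involution of the normaliser commuting with `u`
  obtain ⟨v, hv, hvM⟩ := h.exists_invol (g := u * z) fun hc =>
    huN ((Subgroup.mul_mem_cancel_right _ h.zN).1 hc)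
  set b := (u * z)⁻¹ * v with hb
  have hv' : v = u * (z * b) := by rw [hb]; group
  have hzb : orderOf (z * b) = 2 := by rw [h.z_mul hvM]; exact h.az_invol (inv_mem hvM)
  have hcm : u * (z * b) = z * b * u := by
    have h2 : v⁻¹ = v := inv_self hv
    rw [hv', mul_inv_rev, inv_self hzb, inv_self hu] at h2
    exact h2.symm
  have hwx : z * b * x' * (z * b) = x'⁻¹ := by
    have h1 := h.inverts hzb (mul_mem h.zN (Subgroup.le_normalizer hvM)) hx
    calc z * b * x' * (z * b) = (z * b * u) * x * (u * (z * b)) := by rw [hx']; group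
      _ = (u * (z * b)) * x * (z * b * u) := by rw [← hcm, hcm]
      _ = u * (z * b * x * (z * b)) * u := by group
      _ = x'⁻¹ := by rw [h1, hx', mul_inv_rev, mul_inv_rev, inv_self hu]; group
  have hx'odd : Odd (orderOf x') := by
    have : x' = u * x * u⁻¹ := by rw [inv_self hu]
    rw [this, Involution.orderOf_conj]
    exact h.odd_order hx
  obtain ⟨a, ha, k, hk, hak⟩ := h.decomp hx'N
  have hkz : z * k = k * z := (h.mem_H.1 hk).2.symm
  have hk2 : k * k = 1 := by
    have hba : b * a ∈ M := mul_mem hvM ha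
    have h3 : (b * a)⁻¹ * k * b * (a * k) = 1 := by
      rw [← mul_eq_one_iff_eq_inv.2 hwx, hak]
      calc (b * a)⁻¹ * k * b * (a * k) = (z * (b * a) * z) * k * b * (a * k) := by rw [h.z_inv hba]
        _ = z * (b * a) * (z * k) * b * (a * k) := by group
        _ = z * (b * a) * (k * z) * b * (a * k) := by rw [hkz]
        _ = _ := by group
    refine h.disj ?_ (mul_mem hk hk)
    have h4 : k * k = b * a * (k⁻¹ * (b * a) * k)⁻¹ := by
      rw [eq_mul_inv_iff_mul_eq, show k * k * (k⁻¹ * (b * a) * k) = k * (b * a) * k by group]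
      calc k * (b * a) * k = b * a * ((b * a)⁻¹ * k * b * (a * k)) := by group
        _ = b * a := by rw [h3, mul_one]
    rw [h4]
    exact mul_mem hba (inv_mem (h.conj_mem' (h.mem_H.1 hk).1 hba))
  have hk1 : k = 1 := by
    by_contra hk1
    have hkk : orderOf k = 2 := order_two hk1 hk2
    obtain ⟨a', ha', hka'⟩ := h.invol_mem_N hkk (h.mem_H.1 hk).1
    have hord : orderOf x' = 2 := by
      rw [hak, hka', ← mul_assoc]
      exact h.az_invol (mul_mem ha ha')
    rw [hord] at hx'odd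
    exact absurd hx'odd (by decide)
  rw [hk1, mul_one] at hak
  by_contra hx1
  have hmem : x' ∈ M ⊓ M.map (MulAut.conj u).toMonoidHom :=
    ⟨hak ▸ ha, x, hx, by show u * x * u⁻¹ = x'; rw [inv_self hu]⟩
  have hM := h.ti u fun e => hx1 (by
    rw [e] at hmem
    have h5 := Subgroup.mem_bot.1 hmem
    rw [hx'] at h5
    calc x = u⁻¹ * (u * x * u) * u⁻¹ := by group
      _ = 1 := by rw [h5, mul_one, inv_self hu, mul_self hu])
  refine huN (Subgroup.mem_normalizer_iff.2 fun y => ⟨fun hy => hM ▸ ⟨y, hy, rfl⟩, fun hy => ?_⟩)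
  rw [← hM] at hy
  obtain ⟨w, hw, hwy⟩ := hy
  have hwy' : u * w * u⁻¹ = u * y * u⁻¹ := hwy
  rw [← mul_left_cancel (mul_right_cancel hwy')]
  exact hw

theorem swap_inverts {u x : G} (hu : orderOf u = 2) (huN : u ∉ Nrm M) (hx : x ∈ Nrm M)
    (hux : u * x * u ∈ Nrm M) : u * x * u = x⁻¹ := by
  obtain ⟨v, hv, hvM⟩ := h.exists_invol (g := u * x) fun hc =>
    huN ((Subgroup.mul_mem_cancel_right _ hx).1 hc)
  set a := (u * x)⁻¹ * v with ha
  have hv' : v = u * x * a := by rw [ha]; group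
  have h2 : u * x * a * (u * x * a) = 1 := by rw [← hv']; exact mul_self hv
  have h3 : u⁻¹ * a * u = (u * x * u)⁻¹ * (x * a)⁻¹ := by
    rw [eq_mul_inv_iff_mul_eq, eq_inv_iff_mul_eq_one]
    calc u⁻¹ * a * u * (x * a) * (u * x * u) = u⁻¹ * (a * (u * x * a) * (u * x)) * u := by group
      _ = u⁻¹ * u := by
        rw [show a * (u * x * a) * (u * x) = (u * x)⁻¹ * (u * x * a * (u * x * a)) * (u * x * a)⁻¹ *
          (u * x * a) * a⁻¹ * (u * x)⁻¹ * (u * x) * a * (u * x) * (u * x)⁻¹ * (u*x) by group]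
        rw [h2]
        group
      _ = 1 := inv_mul_cancel u
  have ha1 : a = 1 := h.free huN hvM (by
    rw [h3]; exact mul_mem (inv_mem hux) (inv_mem (mul_mem hx (Subgroup.le_normalizer hvM))))
  rw [ha1, mul_one] at h2
  rw [eq_inv_iff_mul_eq_one, ← h2]
  group

theorem exists_out : ∃ g, g ∉ Nrm M := by
  by_contra hc
  push Not at hc
  exact h.notN (Subgroup.normalizer_eq_top_iff.1 (eq_top_iff.2 fun g _ => hc g))

/-- Every point other than the base is moved by `M` to one given by an involution commuting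
with `z`. -/
theorem exists_swap {g : G} (hg : g ∉ Nrm M) : ∃ c ∈ M, ∃ u, orderOf u = 2 ∧ u ∉ Nrm M ∧
    u * z = z * u ∧ u * c * g ∈ Nrm M := by
  obtain ⟨v, hv, hgv⟩ := h.exists_invol hg
  have hvN := h.invol_out hg hgv
  obtain ⟨w, hw, hwM⟩ := h.exists_invol (g := v * z) fun hc =>
    hvN ((Subgroup.mul_mem_cancel_right _ h.zN).1 hc)
  set b := (v * z)⁻¹ * w with hb
  have hw' : w = v * (z * b) := by rw [hb]; group
  have hzb : orderOf (z * b) = 2 := by rw [h.z_mul hwM]; exact h.az_invol (inv_mem hwM)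
  have hcm : v * (z * b) = z * b * v := by
    have h2 : w⁻¹ = w := inv_self hw
    rw [hw', mul_inv_rev, inv_self hzb, inv_self hv] at h2
    exact h2.symm
  obtain ⟨c, hc, hcb⟩ := h.exists_sqrt hwM
  have hcz : c * (z * b) * c⁻¹ = z := by
    rw [← hcb, show c * (z * (c * c)) * c⁻¹ = c * (z * c) by group, h.z_mul hc,
      mul_inv_cancel_left]
  refine ⟨c, hc, c * v * c⁻¹, order_conj hv c, fun hn => hvN ?_, ?_, ?_⟩
  · exact (Subgroup.mul_mem_cancel_left _ (Subgroup.le_normalizer hc)).1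
      ((Subgroup.mul_mem_cancel_right _ (Subgroup.le_normalizer (inv_mem hc))).1 hn)
  · rw [← hcz, show c * v * c⁻¹ * (c * (z * b) * c⁻¹) = c * (v * (z * b)) * c⁻¹ by group, hcm]
    group
  · rw [show c * v * c⁻¹ * c * g = c * (v * v) * (v⁻¹ * g) by group, mul_self hv, mul_one,
      show v⁻¹ * g = (g⁻¹ * v)⁻¹ by group]
    exact Subgroup.le_normalizer (mul_mem hc (inv_mem hgv))

theorem stab_swap {u x : G} (hu : orderOf u = 2) (huN : u ∉ Nrm M) (huz : u * z = z * u)
    (hx : x ∈ Nrm M) (hux : u * x * u ∈ Nrm M) : x ∈ Hc M z := by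
  have h1 := h.swap_inverts hu huN hx hux
  have hzx : u * (z * x * z) * u ∈ Nrm M := by
    have e : u * (z * x * z) * u = z * (u * x * u) * z := by
      calc u * (z * x * z) * u = u * z * x * (u * z)⁻¹ := by
            rw [mul_inv_rev, inv_self hu, inv_self h.hz]; group
        _ = z * u * x * (z * u)⁻¹ := by rw [huz]
        _ = _ := by rw [mul_inv_rev, inv_self hu, inv_self h.hz]; group
    rw [e]
    exact mul_mem (mul_mem h.zN hux) h.zN
  obtain ⟨a, ha, b, hb, rfl⟩ := h.decomp hx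
  have hzb : z * b = b * z := (h.mem_H.1 hb).2.symm
  have e1 : z * (a * b) * z = a⁻¹ * b := by
    rw [show z * (a * b) * z = z * a * (b * z) by group, ← hzb,
      show z * a * (z * b) = z * a * z * b by group, h.z_inv ha]
  rw [e1] at hzx
  have h2 : u * (a * a) * u ∈ Nrm M := by
    have h3 := mul_mem hux (inv_mem hzx)
    rwa [show u * (a * b) * u * (u * (a⁻¹ * b) * u)⁻¹ = u * (a * a) * u⁻¹ by group, inv_self hu] at h3
  have h4 : a * a = 1 := h.free huN (mul_mem ha ha) (by rwa [inv_self hu])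
  rw [h.eq_one_of_sq ha h4, one_mul]
  exact hb

theorem inv_H {u x : G} (hu : orderOf u = 2) (huN : u ∉ Nrm M) (huz : u * z = z * u)
    (hx : x ∈ Hc M z) : u * x * u = x⁻¹ := by
  obtain ⟨v, hv, hvM⟩ := h.exists_invol (g := u * x) fun hc =>
    huN ((Subgroup.mul_mem_cancel_right _ (h.mem_H.1 hx).1).1 hc)
  set a := (u * x)⁻¹ * v with ha
  have hv' : v = u * (x * a) := by rw [ha]; group
  have hxa : x * a ∈ Nrm M := mul_mem (h.mem_H.1 hx).1 (Subgroup.le_normalizer hvM)
  have hux : u * (x * a) * u = (x * a)⁻¹ := by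
    rw [eq_inv_iff_mul_eq_one, ← mul_self hv, hv']
    group
  have h1 := h.stab_swap hu huN huz hxa (by rw [hux]; exact inv_mem hxa)
  rw [h.disj hvM ((Subgroup.mul_mem_cancel_left _ hx).1 h1), mul_one] at hux
  exact hux

theorem H_comm {a b : G} (ha : a ∈ Hc M z) (hb : b ∈ Hc M z) : a * b = b * a := by
  obtain ⟨g, hg⟩ := h.exists_out
  obtain ⟨-, -, u, hu, huN, huz, -⟩ := h.exists_swap hg
  have e : (a * b)⁻¹ = a⁻¹ * b⁻¹ := by
    rw [← h.inv_H hu huN huz (mul_mem ha hb), ← h.inv_H hu huN huz ha, ← h.inv_H hu huN huz hb,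
      show u * a * u * (u * b * u) = u * a * (u * u) * b * u by group, mul_self hu, mul_one]
    group
  simpa using congrArg (·⁻¹) e

/-- Elements of the centraliser of `z` outside the normaliser are involutions. -/
theorem invol_of_cent {g : G} (hgz : g * z = z * g) (hgN : g ∉ Nrm M) : orderOf g = 2 := by
  obtain ⟨u, hu, hgu⟩ := h.exists_invol hgN
  have he : u = g * (g⁻¹ * u) := by group
  have h2 : z * u * z = g * (g⁻¹ * u)⁻¹ := by
    conv_lhs => rw [he]
    rw [show z * (g * (g⁻¹ * u)) * z = (z * g) * (g⁻¹ * u) * z by group, ← hgz,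
      show g * z * (g⁻¹ * u) * z = g * (z * (g⁻¹ * u) * z) by group, h.z_inv hgu]
  have hzu : orderOf (z * u * z) = 2 := by
    have := order_conj hu z
    rwa [inv_self h.hz] at this
  have h3 := h.coset_unique hgN hu hzu hgu (by
    rw [h2, inv_mul_cancel_left]; exact inv_mem hgu)
  rw [h2] at h3
  have h4 : g⁻¹ * u = (g⁻¹ * u)⁻¹ := by
    nth_rewrite 1 [h3]
    rw [inv_mul_cancel_left]
  have h5 : g⁻¹ * u = 1 := h.eq_one_of_sq hgu (by
    nth_rewrite 2 [h4]; exact mul_inv_cancel _)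
  rw [inv_mul_eq_one] at h5
  rw [h5]; exact hu

end Hyp

end Cfsg.Agent.Lib.TICount
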