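import Cfsg.Agent.Lib.TICount.Basic
import Cfsg.Agent.Lib.Zass.Struct
import Cfsg.Agent.Lib.Zass.Sharp
import Cfsg.Agent.S0731
import Cfsg.Agent.S0738
import Mathlib.GroupTheory.GroupAction.MultipleTransitivity
import Mathlib.FieldTheory.Finite.Basic

/-!
The case in which the action on the cosets of the normaliser is doubly transitive: `PGL(2, q)` or
`PSL(2, q)` (helper3).
-/

set_option autoImplicit false

namespace Cfsg.Agent.Lib.TICount

open Cfsg MulAction Cfsg.Agent.Lib.Zass

universe u

variable {G : Type u} [Group G] [Finite G] {M : Subgroup G} {z : G}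

namespace Hyp

variable (h : Hyp M z)
include h

/-- No element of `Hc M z` other than the identity centralises a non-identity element of `M`. -/
theorem H_free
    (hA : ∀ u v, orderOf u = 2 → orderOf v = 2 → u ∉ Nrm M → v ∉ Nrm M →
      u * z = z * u → v * z = z * v → u * v ∈ Nrm M)
    {u : G} (hu : orderOf u = 2) (huN : u ∉ Nrm M) (huz : u * z = z * u)
    {a x : G} (ha : a ∈ Hc M z) (hx : x ∈ M) (hx1 : x ≠ 1) (hax : a * x = x * a) : a = 1 := by
  have _ := hA
  by_contra ha1
  set g := u * x * u⁻¹ with hg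
  have hgN : g ∉ Nrm M := fun hc => hx1 (h.free (g := u⁻¹) (by rwa [inv_self hu]) hx
    (by rwa [inv_inv]))
  obtain ⟨v, hv, hgv⟩ := h.exists_invol hgN
  have hvN := h.invol_out hgN hgv
  set c := g⁻¹ * v with hc
  have huau : u * a * u = a⁻¹ := h.inv_H hu huN huz ha
  have hga : g⁻¹ * a * g = a := by
    rw [hg, show (u * x * u⁻¹)⁻¹ * a * (u * x * u⁻¹) = u * x⁻¹ * (u⁻¹ * a * u) * x * u⁻¹ by group,
      inv_self hu, huau, show u * x⁻¹ * a⁻¹ * x * u = u * ((a * x)⁻¹ * x) * u by group, hax,
      show u * ((x * a)⁻¹ * x) * u = u * a⁻¹ * u by group, ← huau,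
      show u * (u * a * u) * u = (u * u) * a * (u * u) by group, mul_self hu, one_mul, mul_one]
  have hvav : v * a * v = c⁻¹ * a * c := by
    conv_lhs => arg 1; arg 1; rw [← inv_self hv]
    rw [show v = g * c by rw [hc, mul_inv_cancel_left],
      show (g * c)⁻¹ * a * (g * c) = c⁻¹ * (g⁻¹ * a * g) * c by group, hga]
  have h1 := h.swap_inverts hv hvN (h.mem_H.1 ha).1 (by
    rw [hvav]
    exact mul_mem (mul_mem (inv_mem (Subgroup.le_normalizer hgv)) (h.mem_H.1 ha).1)
      (Subgroup.le_normalizer hgv))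
  rw [hvav] at h1
  have h2 : a * a ∈ M := by
    have : a * a = a * c⁻¹ * a⁻¹ * ((a * c⁻¹ * a⁻¹)⁻¹ * (a * a)) := by group
    have e : a * a = ((c⁻¹ * (a * c * a⁻¹)))⁻¹ * ((c⁻¹ * a * c) * a) := by group
    rw [e, h1, inv_mul_cancel, mul_one]
    exact inv_mem (mul_mem (inv_mem hgv) (h.conj_mem (h.mem_H.1 ha).1 hgv))
  have h3 : a * a = 1 := h.disj h2 (mul_mem ha ha)
  exact h.no_invol_cent hx hx1 (order_two ha1 h3) hax

theorem caseA
    (hA : ∀ u v, orderOf u = 2 → orderOf v = 2 → u ∉ Nrm M → v ∉ Nrm M →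
      u * z = z * u → v * z = z * v → u * v ∈ Nrm M) :
    ∃ (F : Type) (_ : Field F) (_ : Fintype F) (p : ℕ) (_ : Fact p.Prime) (_ : CharP F p),
      Fintype.card F = Nat.card M ∧ Cfsg.IsElementaryAbelian p M ∧
        (Nonempty (G ≃* Matrix.ProjGenLinGroup (Fin 2) F) ∨
         (Fintype.card F % 4 = 1 ∧
          Nonempty (G ≃* Matrix.ProjectiveSpecialLinearGroup (Fin 2) F))) := by
  classical
  haveI := Fintype.ofFinite G
  obtain ⟨g₀, hg₀⟩ := h.exists_out
  obtain ⟨-, -, u, hu, huN, huz, -⟩ := h.exists_swap hg₀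
  set N := Nrm M with hNdef
  set H := Hc M z with hHdef
  set b : G ⧸ N := ((1 : G) : G ⧸ N) with hbdef
  set y₀ : G ⧸ N := u • b with hy₀def
  haveI := Fintype.ofFinite (G ⧸ N)
  have hfixb : ∀ g : G, g • b = b ↔ g ∈ N := fun g => by
    rw [← MulAction.mem_stabilizer_iff, MulAction.stabilizer_quotient]
  have hy₀ : y₀ ≠ b := fun e => huN ((hfixb u).1 e)
  have huy₀ : u • y₀ = b := by rw [hy₀def, ← mul_smul, mul_self hu, one_smul]
  have hfix0 : ∀ g : G, g • y₀ = y₀ ↔ u * g * u ∈ N := fun g => by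
    rw [← hfixb, hy₀def, mul_smul, mul_smul]
    refine ⟨fun e => by rw [e, ← mul_smul, mul_self hu, one_smul], fun e => ?_⟩
    calc g • u • b = u • u • g • u • b := by rw [← mul_smul u u, mul_self hu, one_smul]
      _ = u • b := by rw [e]
  have hstab : stabilizer G b ⊓ stabilizer G y₀ = H := by
    refine le_antisymm (fun g hg => ?_) fun g hg => ⟨(hfixb g).2 hg.1, (hfix0 g).2 ?_⟩
    · exact h.stab_swap hu huN huz ((hfixb g).1 hg.1) ((hfix0 g).1 hg.2)
    · rw [h.inv_H hu huN huz hg]
      exact inv_mem hg.1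
  have hMN : M ≤ stabilizer G b := fun c hc => (hfixb c).2 (Subgroup.le_normalizer hc)
  have hfree : ∀ c ∈ M, c • y₀ = y₀ → c = 1 := fun c hc hcy =>
    h.free huN hc (by rw [inv_self hu]; exact (hfix0 c).1 hcy)
  have hK : IsKernel M b y₀ := by
    refine ⟨hy₀.symm, hMN, fun g hg c hc => h.conj_mem ((hfixb g).1 hg) hc, fun y hy => ?_⟩
    induction y using QuotientGroup.induction_on with
    | H g =>
      have hg : g ∉ N := fun hc => hy (QuotientGroup.eq.2 (by rw [mul_one]; exact inv_mem hc))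
      obtain ⟨c, hc, w, hw, hwN, hwz, hwcg⟩ := h.exists_swap hg
      have huw := hA u w hu hw huN hwN huz hwz
      have hwb : w • b = y₀ := by
        rw [hy₀def, ← inv_smul_eq_iff, inv_self hu, ← mul_smul]
        exact (hfixb _).2 huw
      have hgy : c⁻¹ • y₀ = ((g : G) : G ⧸ N) := by
        rw [inv_smul_eq_iff, ← hwb, ← inv_self hw, inv_smul_eq_iff, ← mul_smul]
        exact ((QuotientGroup.eq.2 (by rw [mul_one]; exact inv_mem hwcg)) :
          ((w * c * g : G) : G ⧸ N) = ((1 : G) : G ⧸ N)).symm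
      refine ⟨⟨c⁻¹, inv_mem hc⟩, hgy, fun d hd => Subtype.ext ?_⟩
      refine eq_inv_of_mul_eq_one_right (hfree (c * d) (mul_mem hc d.2) ?_)
      rw [mul_smul, hd, ← hgy, smul_inv_smul]
  have hMc : IsMulCommutative M := ⟨⟨fun a c => Subtype.ext (h.comm a.2 c.2)⟩⟩
  have hn : Fintype.card (G ⧸ N) = Nat.card M + 1 := by
    have := hK.card_eq
    rw [Nat.card_eq_fintype_card (α := G ⧸ N)] at this
    omega
  have hfree3 : ∀ g ∈ stabilizer G b ⊓ stabilizer G y₀, ∀ y, y ≠ b → y ≠ y₀ → g • y = y →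
      g = 1 := by
    intro g hg y hy hyy hgy
    rw [hstab] at hg
    obtain ⟨c, hc, -⟩ := hK.reg y hy
    have hc1 : (c : G) ≠ 1 := fun e => hyy (by rw [← hc, e, one_smul])
    have hmem : (c : G)⁻¹ * g * c ∈ H := by
      rw [← hstab]
      refine ⟨(hfixb _).2 (mul_mem (mul_mem (inv_mem (Subgroup.le_normalizer c.2)) hg.1)
        (Subgroup.le_normalizer c.2)), ?_⟩
      show ((c : G)⁻¹ * g * c) • y₀ = y₀
      rw [mul_smul, mul_smul, hc, hgy, ← hc, inv_smul_smul]
    have h1 : (c : G)⁻¹ * (g * c * g⁻¹) = 1 := by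
      refine h.disj (mul_mem (inv_mem c.2) (h.conj_mem hg.1 c.2)) ?_
      rw [show (c : G)⁻¹ * (g * c * g⁻¹) = (c : G)⁻¹ * g * c * g⁻¹ by group]
      exact mul_mem hmem (inv_mem hg)
    rw [inv_mul_eq_one, eq_mul_inv_iff_mul_eq] at h1
    exact h.H_free hA hu huN huz hg c.2 hc1 h1.symm
  have hz1 : z ≠ 1 := ne_one h.hz
  have hzb : z • b = b := (hfixb z).2 h.zN
  have hzy : z • y₀ = y₀ := (hfix0 z).2 (by
    rw [h.inv_H hu huN huz h.z_mem_H]; exact inv_mem h.zN)
  have hM3 : 3 ≤ Nat.card M := by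
    obtain ⟨x, hx, hx1⟩ := (Subgroup.bot_or_exists_ne_one M).resolve_left h.ne
    have h1 := Nat.le_of_dvd Nat.card_pos (orderOf_dvd_natCard (⟨x, hx⟩ : M))
    rw [Subgroup.orderOf_mk] at h1
    obtain ⟨i, hi⟩ := h.odd_order hx
    have : orderOf x ≠ 1 := fun e => hx1 (orderOf_eq_one_iff.1 e)
    omega
  haveI hfaith : FaithfulSMul G (G ⧸ N) := ⟨fun {g₁ g₂} e => by
    have hg : ∀ y : G ⧸ N, (g₂⁻¹ * g₁) • y = y := fun y => by rw [mul_smul, e, inv_smul_smul]
    obtain ⟨y, hy⟩ : ∃ y : G ⧸ N, y ∉ ({b, y₀} : Finset (G ⧸ N)) := by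
      by_contra hcon
      push Not at hcon
      have := Finset.card_le_card (s := (Finset.univ : Finset (G ⧸ N))) (t := {b, y₀})
        fun y _ => hcon y
      rw [Finset.card_univ, Finset.card_pair hy₀.symm] at this
      omega
    simp only [Finset.mem_insert, Finset.mem_singleton, not_or] at hy
    exact (inv_mul_eq_one.1 (hfree3 _ ⟨hg b, hg y₀⟩ y hy.1 hy.2 (hg y))).symm⟩
  have hsinv : ∀ g ∈ stabilizer G b ⊓ stabilizer G y₀, u * g * u⁻¹ = g⁻¹ := fun g hg => by
    rw [inv_self hu]
    rw [hstab] at hg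
    exact h.inv_H hu huN huz hg
  have hk := h.counting.2.1
  rw [← hHdef] at hk
  by_cases hfull : Nat.card H + 1 = Nat.card M
  · -- `PGL`
    obtain ⟨x₀, hx₀, hx₀1⟩ := (Subgroup.bot_or_exists_ne_one M).resolve_left h.ne
    set p := (orderOf x₀).minFac with hpdef
    have hp : p.Prime := Nat.minFac_prime fun e => hx₀1 (orderOf_eq_one_iff.1 e)
    set x := x₀ ^ (orderOf x₀ / p) with hxdef
    have hxo : orderOf x = p :=
      orderOf_pow_orderOf_div (orderOf_pos x₀).ne' (Nat.minFac_dvd _)
    have hxM : x ∈ M := pow_mem hx₀ _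
    have hx1 : x ≠ 1 := fun e => hp.ne_one (by rw [← hxo, e, orderOf_one])
    haveI := Fintype.ofFinite H
    haveI := Fintype.ofFinite M
    let f : H → {c : M // c ≠ 1} := fun a => ⟨⟨(a : G) * x * (a : G)⁻¹, h.conj_mem a.2.1 hxM⟩,
      fun e => hx1 (conj_eq_one_iff.1 (congrArg Subtype.val e))⟩
    have hf : Function.Bijective f := by
      refine (Fintype.bijective_iff_injective_and_card f).2 ⟨fun a c e => ?_, ?_⟩
      · have e' : (a : G) * x * (a : G)⁻¹ = (c : G) * x * (c : G)⁻¹ :=
          congrArg (fun w : {c : M // c ≠ 1} => ((w : M) : G)) e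
        refine Subtype.ext (inv_mul_eq_one.1 (h.H_free hA hu huN huz
          (mul_mem (inv_mem c.2) a.2) hxM hx1 ?_)).symm
        calc (c : G)⁻¹ * a * x = (c : G)⁻¹ * ((a : G) * x * (a : G)⁻¹) * a := by group
          _ = _ := by rw [e']; group
      · rw [Fintype.card_subtype_compl, Fintype.card_subtype_eq, ← Nat.card_eq_fintype_card,
          ← Nat.card_eq_fintype_card]
        omega
    have hpow : ∀ c ∈ M, c ^ p = 1 := by
      intro c hc
      by_cases hc1 : c = 1
      · rw [hc1, one_pow]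
      obtain ⟨a, ha⟩ := hf.2 ⟨⟨c, hc⟩, fun e => hc1 (congrArg Subtype.val e)⟩
      have ha' : (a : G) * x * (a : G)⁻¹ = c :=
        congrArg (fun w : {c : M // c ≠ 1} => ((w : M) : G)) ha
      rw [← ha', conj_pow, ← hxo, pow_orderOf_eq_one, mul_one, mul_inv_cancel]
    haveI : Fact p.Prime := ⟨hp⟩
    obtain ⟨f', hf'⟩ : ∃ f', Nat.card M = p ^ f' :=
      IsPGroup.iff_card.1 fun c => ⟨1, Subtype.ext (by simpa using hpow c c.2)⟩
    have hf0 : f' ≠ 0 := fun e => by rw [e, pow_zero] at hf'; omega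
    haveI : IsPretransitive G (G ⧸ N) := inferInstance
    obtain ⟨F, iF, iT, hFc, hiso⟩ := pgl_of_inverted hp hf0 M hK hMc hf' hfree3
      (by rw [hstab]; omega) u hy₀def.symm huy₀ hsinv
    have hchar : CharP F p := charP_of_card_eq_prime_pow hFc
    exact ⟨F, iF, iT, p, ⟨hp⟩, hchar, hFc.trans hf'.symm, ⟨hMc, hpow⟩, Or.inl hiso⟩
  · -- `PSL`
    have hZ : Cfsg.IsZassenhausGroup G (G ⧸ N) := by
      refine ⟨hfaith, MulAction.is_two_pretransitive_iff.2 ?_, ?_,
        ⟨z, hz1, b, y₀, hy₀.symm, hzb, hzy⟩, ?_⟩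
      · have key : ∀ a a' : G ⧸ N, a ≠ a' → ∃ g : G, g • a = b ∧ g • a' = y₀ := fun a a' haa' => by
          obtain ⟨g, hg⟩ := MulAction.exists_smul_eq G a b
          obtain ⟨c, hc, -⟩ := hK.reg (g • a')
            fun e => haa' (MulAction.injective g (hg.trans e.symm))
          refine ⟨(c : G)⁻¹ * g, ?_, ?_⟩
          · rw [mul_smul, hg, inv_smul_eq_iff]
            exact ((hMN c.2 : _)).symm
          · rw [mul_smul, ← hc, inv_smul_smul]
        intro a a' c c' haa' hcc'
        obtain ⟨g, hg, hg'⟩ := key a a' haa'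
        obtain ⟨g', hgc, hgc'⟩ := key c c' hcc'
        exact ⟨g'⁻¹ * g, by rw [mul_smul, hg, ← hgc, inv_smul_smul],
          by rw [mul_smul, hg', ← hgc', inv_smul_smul]⟩
      · intro g a a' c haa' ha'c hac hga hga' hgc
        obtain ⟨k, hk1, hk2⟩ : ∃ k : G, k • a = b ∧ k • a' = y₀ := by
          obtain ⟨g', hg'⟩ := MulAction.exists_smul_eq G a b
          obtain ⟨d, hd, -⟩ := hK.reg (g' • a')
            fun e => haa' (MulAction.injective g' (hg'.trans e.symm))
          refine ⟨(d : G)⁻¹ * g', ?_, ?_⟩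
          · rw [mul_smul, hg', inv_smul_eq_iff]
            exact ((hMN d.2 : _)).symm
          · rw [mul_smul, ← hd, inv_smul_smul]
        have hfix : ∀ p : G ⧸ N, g • p = p → (k * g * k⁻¹) • (k • p) = k • p := fun p hp => by
          rw [mul_smul, inv_smul_smul, mul_smul, hp]
        have e1 := hfix a hga
        have e2 := hfix a' hga'
        rw [hk1] at e1; rw [hk2] at e2
        exact conj_eq_one_iff.1 (hfree3 (k * g * k⁻¹) ⟨e1, e2⟩ (k • c)
          (fun e => hac (MulAction.injective k (hk1.trans e.symm)))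
          (fun e => ha'c (MulAction.injective k (hk2.trans e.symm))) (hfix c hgc))
      · -- no regular normal subgroup
        intro R hR htr
        by_contra hcon
        push Not at hcon
        have hRfree : ∀ r ∈ R, r • b = b → r = 1 := fun r hr hrb =>
          congrArg Subtype.val ((Subgroup.eq_bot_iff_forall _).1 (hcon b) ⟨r, hr⟩ hrb)
        have hRinj : ∀ r ∈ R, ∀ r' ∈ R, r • b = r' • b → r = r' := fun r hr r' hr' e =>
          (inv_mul_eq_one.1 (hRfree _ (mul_mem (inv_mem hr') hr)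
            (by rw [mul_smul, e, inv_smul_smul]))).symm
        have hRcard : Nat.card R = Nat.card M + 1 := by
          rw [← hn, ← Nat.card_eq_fintype_card]
          refine Nat.card_eq_of_bijective (fun r : R => (r : G) • b)
            ⟨fun r r' e => Subtype.ext (hRinj r r.2 r' r'.2 e), fun y => ?_⟩
          obtain ⟨r, hr⟩ := htr.exists_smul_eq b y
          exact ⟨r, hr⟩
        obtain ⟨e₀, he₀⟩ := htr.exists_smul_eq b y₀
        have he₀b : (e₀ : G) • b = y₀ := he₀
        have hall : ∀ r ∈ R, r ≠ 1 → ∃ c ∈ M, r = c * (e₀ : G) * c⁻¹ := by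
          intro r hr hr1
          obtain ⟨c, hc, -⟩ := hK.reg (r • b) fun e => hr1 (hRfree r hr e)
          refine ⟨c, c.2, hRinj r hr _ (hR.conj_mem _ e₀.2 _) ?_⟩
          rw [mul_smul, mul_smul, show (c : G)⁻¹ • b = b from hMN (inv_mem c.2), he₀b, hc]
        have hord : ∀ r ∈ R, r * r = 1 := by
          haveI : Fact (Nat.Prime 2) := ⟨Nat.prime_two⟩
          obtain ⟨i, hi⟩ : Odd (Nat.card M) := by
            rw [← Nat.not_even_iff_odd, even_iff_two_dvd]
            intro h2
            obtain ⟨c, hc⟩ := exists_prime_orderOf_dvd_card' 2 h2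
            have := h.odd_order c.2
            rw [Subgroup.orderOf_coe, hc] at this
            exact absurd this (by decide)
          obtain ⟨e, he⟩ := exists_prime_orderOf_dvd_card' (G := R) 2 (by rw [hRcard]; omega)
          have he' : orderOf (e : G) = 2 := by rw [Subgroup.orderOf_coe]; exact he
          obtain ⟨c, -, hce⟩ := hall e e.2 (ne_one he')
          have he0 : (e₀ : G) * e₀ = 1 := by
            have h3 : orderOf (e₀ : G) = 2 := by
              rw [← Involution.orderOf_conj c (e₀ : G), ← hce]; exact he'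
            exact mul_self h3
          intro r hr
          by_cases hr1 : r = 1
          · rw [hr1, mul_one]
          obtain ⟨d, -, rfl⟩ := hall r hr hr1
          calc d * (e₀ : G) * d⁻¹ * (d * e₀ * d⁻¹) = d * ((e₀ : G) * e₀) * d⁻¹ := by group
            _ = 1 := by rw [he0, mul_one, mul_inv_cancel]
        have hRc : ∀ r ∈ R, ∀ r' ∈ R, r * r' = r' * r := fun r hr r' hr' => by
          have hi : ∀ s ∈ R, s⁻¹ = s := fun s hs => inv_eq_of_mul_eq_one_right (hord s hs)
          rw [← hi _ (mul_mem hr hr'), mul_inv_rev, hi r hr, hi r' hr']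
        have hzR : ∀ r ∈ R, z * r * z ∈ R := fun r hr => by
          have := hR.conj_mem r hr z
          rwa [inv_self h.hz] at this
        let φ : R →* R := MonoidHom.mk' (fun r => r * ⟨z * r * z, hzR r r.2⟩) fun r r' =>
          Subtype.ext (by
            show (r : G) * r' * (z * ((r : G) * r') * z) =
              (r : G) * (z * r * z) * ((r' : G) * (z * r' * z))
            rw [show z * ((r : G) * r') * z = z * r * (z * z) * r' * z by
                rw [mul_self h.hz, mul_one]; group,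
              show (r : G) * r' * (z * r * (z * z) * r' * z) =
                (r : G) * ((r' : G) * (z * r * z)) * (z * r' * z) by group,
              hRc r' r'.2 _ (hzR r r.2)]
            group)
        have hsmall : ∀ r ∈ R, r * z = z * r → r = 1 ∨ r = e₀ := by
          intro r hr hrz
          have hzr : z • (r • b) = r • b := by rw [← mul_smul, ← hrz, mul_smul, hzb]
          by_cases h1 : r • b = b
          · exact Or.inl (hRfree r hr h1)
          by_cases h2 : r • b = y₀
          · exact Or.inr (hRinj r hr _ e₀.2 (h2.trans he₀b.symm))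
          exact absurd (hfree3 z ⟨hzb, hzy⟩ _ h1 h2 hzr) hz1
        have htwo : ∀ S : Subgroup R, (∀ r ∈ S, (r : G) * z = z * r) → Nat.card S ≤ 2 := by
          intro S hS
          haveI := Fintype.ofFinite S
          rw [Nat.card_eq_fintype_card]
          refine (Fintype.card_le_of_injective
            (fun r : S => decide ((r : R) = 1)) fun r r' e => ?_).trans Fintype.card_bool.le
          simp only [decide_eq_decide] at e
          have hc : ∀ w : S, (w : R) = 1 ∨ (w : R) = e₀ := fun w =>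
            (hsmall w (w : R).2 (hS _ w.2)).imp (fun e => Subtype.ext e) fun e => Subtype.ext e
          rcases hc r with a1 | a1 <;> rcases hc r' with a2 | a2
          · exact Subtype.ext (a1.trans a2.symm)
          · exact Subtype.ext (a1.trans (e.1 a1).symm)
          · exact Subtype.ext ((e.2 a2).trans a2.symm)
          · exact Subtype.ext (a1.trans a2.symm)
        have hker : Nat.card φ.ker ≤ 2 := htwo _ fun r hr => by
          have h1 : (r : G) * (z * r * z) = 1 := congrArg Subtype.val hr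
          have h2 : z * (r : G) * z = r := by
            rw [eq_inv_of_mul_eq_one_right h1, inv_eq_of_mul_eq_one_right (hord r r.2)]
          conv_lhs => arg 1; rw [← h2]
          rw [mul_assoc, mul_self h.hz, mul_one]
        have hran : Nat.card φ.range ≤ 2 := htwo _ fun r hr => by
          obtain ⟨s, rfl⟩ := hr
          show (s : G) * (z * s * z) * z = z * ((s : G) * (z * s * z))
          rw [show z * ((s : G) * (z * s * z)) = z * s * z * s * z by group,
            ← hRc (s : G) s.2 _ (hzR s s.2)]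
        have h4 : Nat.card R ≤ 4 := by
          rw [← φ.ker.card_mul_index, Subgroup.index_ker]
          exact Nat.mul_le_mul hker hran
        have hk2 : 2 ≤ Nat.card H := by
          have h1 := Nat.le_of_dvd Nat.card_pos (orderOf_dvd_natCard (⟨z, h.z_mem_H⟩ : H))
          rw [Subgroup.orderOf_mk, h.hz] at h1
          exact h1
        omega
    have h1 := (abelian_kernel_struct hZ hK hMc).1
    obtain ⟨d, hd⟩ := ZassFrob.card_twoPt_dvd hZ hy₀.symm
    rw [hstab, Nat.card_eq_fintype_card (α := G ⧸ N), hn] at hd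
    rw [hstab] at h1
    have hd2 : d = 2 := by
      rcases Nat.lt_trichotomy d 2 with hlt | heq | hgt
      · exfalso
        interval_cases d <;> omega
      · exact heq
      · have : Nat.card H * 3 ≤ Nat.card H * d := Nat.mul_le_mul_left _ hgt
        have hHpos : 0 < Nat.card H := Nat.card_pos
        omega
    rw [hd2] at hd
    have heq : Nat.card M - 1 = 2 * Nat.card ↥(stabilizer G b ⊓ stabilizer G y₀) := by
      rw [hstab]; omega
    obtain ⟨p, f, F, iF, iT, hp, -, -, hMp, hFc, -, hiso⟩ := psl_of_half hZ hK hMc heq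
    haveI : Fact p.Prime := ⟨hp⟩
    obtain ⟨-, p', f', hp', hpow, hcard⟩ := S0738.result hZ hy₀.symm (by rw [hstab]; omega) M hMN
      hK.normal fun y w hy hw => hK.reg_pair y w hy hw
    have hpp : p' = p := by
      obtain ⟨x, hx, hx1⟩ := (Subgroup.bot_or_exists_ne_one M).resolve_left h.ne
      haveI : Fact p'.Prime := ⟨hp'⟩
      have h2 := orderOf_eq_prime (hpow x hx) hx1
      have h3 := orderOf_dvd_natCard (⟨x, hx⟩ : M)
      rw [Subgroup.orderOf_mk, h2, hMp] at h3
      exact (Nat.prime_dvd_prime_iff_eq hp' hp).1 (hp'.dvd_of_dvd_pow h3)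
    rw [hpp] at hpow
    have heven : 2 ∣ Nat.card H := by
      rw [← h.hz, ← Subgroup.orderOf_mk z h.z_mem_H]
      exact orderOf_dvd_natCard _
    exact ⟨F, iF, iT, p, ⟨hp⟩, charP_of_card_eq_prime_pow hFc, hFc.trans hMp.symm,
      ⟨hMc, hpow⟩, Or.inr ⟨by rw [hFc, ← hMp]; obtain ⟨j, hj⟩ := heven; omega, hiso⟩⟩

end Hyp

end Cfsg.Agent.Lib.TICount
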