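import Cfsg.Agent.Lib.TICount.Basic
import Cfsg.Agent.Lib.PSLTwo.RecogTwo
import Cfsg.Agent.Lib.Hall.CoprimeProduct
import Cfsg.Agent.Lib.Hall.Solvable
import Cfsg.Agent.Lib.Involution.DihedralHom
import Cfsg.Agent.Lib.Coprime.Abelian
import Cfsg.Agent.Lib.Recog.SLTwo
import Cfsg.Agent.S0262
import Cfsg.Prelude.Def_Transfer
import Mathlib.FieldTheory.Finite.GaloisField

/-!
The case in which the centraliser of `z` is elementary abelian: `PSL(2, 2 ^ e)` or an elementary
abelian normal 2-subgroup with dihedral complement (helper3).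
-/

set_option autoImplicit false

namespace Cfsg.Agent.Lib.TICount

open Cfsg MulAction

universe u

variable {G : Type u} [Group G] [Finite G] {M : Subgroup G} {z : G}

/-- An involution acting without fixed points inverts. -/
theorem inverts_of_free {R : Subgroup G} {e : G} (he : orderOf e = 2)
    (heR : ∀ x ∈ R, e * x * e ∈ R) (hfree : ∀ x ∈ R, e * x = x * e → x = 1) {x : G} (hx : x ∈ R) :
    e * x * e = x⁻¹ := by
  let f : R → R := fun y => ⟨(y : G)⁻¹ * (e * y * e), mul_mem (inv_mem y.2) (heR y y.2)⟩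
  have hf : Function.Injective f := by
    intro a b hab
    have e' : (a : G)⁻¹ * (e * a * e) = (b : G)⁻¹ * (e * b * e) := congrArg Subtype.val hab
    refine Subtype.ext (mul_inv_eq_one.1 (hfree _ (mul_mem a.2 (inv_mem b.2)) ?_))
    calc e * ((a : G) * (b : G)⁻¹) = (a : G) * ((a : G)⁻¹ * (e * a * e)) * e⁻¹ * (b : G)⁻¹ := by group
      _ = (a : G) * ((b : G)⁻¹ * (e * b * e)) * e⁻¹ * (b : G)⁻¹ := by rw [e']
      _ = _ := by group
  obtain ⟨y, hy⟩ := Finite.surjective_of_injective hf ⟨x, hx⟩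
  have hy' : (y : G)⁻¹ * (e * y * e) = x := congrArg Subtype.val hy
  rw [← hy']
  calc e * ((y : G)⁻¹ * (e * y * e)) * e = e * (y : G)⁻¹ * e * y * (e * e) := by group
    _ = e⁻¹ * (y : G)⁻¹ * e⁻¹ * y := by rw [mul_self he, mul_one, inv_self he]
    _ = _ := by group

/-- The base point. -/
abbrev base (M : Subgroup G) : G ⧸ Nrm M := ((1 : G) : G ⧸ Nrm M)

/-- The fixed points of `z` other than the base point. -/
abbrev Fx (M : Subgroup G) (z : G) : Type u :=
  {β : G ⧸ Nrm M // z • β = β ∧ β ≠ base M}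

/-- Two outside involutions commuting with `z` whose product is outside. -/
abbrev TwoOut (M : Subgroup G) (z : G) : Prop :=
  ∃ u v, orderOf u = 2 ∧ orderOf v = 2 ∧ u ∉ Nrm M ∧ v ∉ Nrm M ∧ u * z = z * u ∧ v * z = z * v ∧
    u * v ∉ Nrm M

theorem smul_base {g : G} : g • base M = base M ↔ g ∈ Nrm M := by
  rw [← MulAction.mem_stabilizer_iff, MulAction.stabilizer_quotient]

namespace Hyp

variable (h : Hyp M z)
include h

theorem free_pt {c : G} {β : G ⧸ Nrm M} (hc : c ∈ M) (hβ : β ≠ base M) (hfix : c • β = β) :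
    c = 1 := by
  obtain ⟨g, hg⟩ := MulAction.exists_smul_eq G (base M) β
  have hgN : g ∉ Nrm M := fun hn => hβ (hg ▸ smul_base.2 hn)
  refine h.free hgN hc (smul_base.1 ?_)
  rw [mul_smul, mul_smul, hg, hfix, inv_smul_eq_iff, hg]

theorem H_two (hB : TwoOut M z) {x : G} (hx : x ∈ Hc M z) : x = 1 ∨ x = z := by
  obtain ⟨u, v, hu, hv, huN, hvN, huz, hvz, huv⟩ := hB
  have hw : orderOf (u * v) = 2 := h.invol_of_cent
    (by rw [mul_assoc, hvz, ← mul_assoc, huz, mul_assoc]) huv
  have h1 := h.inv_H hw huv (by rw [mul_assoc, hvz, ← mul_assoc, huz, mul_assoc]) hx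
  have h2 : u * v * x * (u * v)⁻¹ = x := by
    rw [mul_inv_rev, inv_self hu, inv_self hv,
      show u * v * x * (v * u) = u * (v * x * v) * u by group, h.inv_H hv hvN hvz hx,
      h.inv_H hu huN huz (inv_mem hx), inv_inv]
  rw [inv_self hw] at h2
  have h3 : x * x = 1 := by
    rw [← eq_inv_iff_mul_eq_one]; exact h2.symm.trans h1
  by_cases hx1 : x = 1
  · exact Or.inl hx1
  obtain ⟨a, ha, hxa⟩ := h.invol_mem_N (order_two hx1 h3) (h.mem_H.1 hx).1
  refine Or.inr ?_
  have : a = 1 := h.disj ha (by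
    rw [show a = x * z⁻¹ by rw [hxa, mul_inv_cancel_right]]
    exact mul_mem hx (inv_mem h.z_mem_H))
  rw [hxa, this, one_mul]

theorem card_H (hB : TwoOut M z) : Nat.card (Hc M z) = 2 := by
  rw [← Nat.card_congr (Equiv.ofBijective
    (fun i : Bool => bif i then (⟨z, h.z_mem_H⟩ : Hc M z) else 1) ⟨?_, ?_⟩), Nat.card_eq_fintype_card,
    Fintype.card_bool]
  · intro i j hij
    cases i <;> cases j <;> simp_all [Subtype.ext_iff, ne_one h.hz, (ne_one h.hz).symm]
  · rintro ⟨x, hx⟩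
    rcases h.H_two hB hx with rfl | rfl
    · exact ⟨false, rfl⟩
    · exact ⟨true, rfl⟩

theorem card_N2 (hB : TwoOut M z) : Nat.card (Nrm M) = 2 * Nat.card M := by
  rw [h.card_N, h.card_H hB, mul_comm]

theorem mem_N_cases (hB : TwoOut M z) {g : G} (hg : g ∈ Nrm M) :
    g ∈ M ∨ ∃ a ∈ M, g = a * z := by
  obtain ⟨a, ha, c, hc, rfl⟩ := h.decomp hg
  rcases h.H_two hB hc with rfl | rfl
  · exact Or.inl (by rwa [mul_one])
  · exact Or.inr ⟨a, ha, rfl⟩

theorem cent_sq (hB : TwoOut M z) {g : G} (hg : g * z = z * g) : g * g = 1 := by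
  by_cases hgN : g ∈ Nrm M
  · rcases h.H_two hB (h.mem_H.2 ⟨hgN, hg⟩) with rfl | rfl
    · exact one_mul 1
    · exact mul_self h.hz
  · exact mul_self (h.invol_of_cent hg hgN)

theorem cent_comm (hB : TwoOut M z) {g g' : G} (hg : g * z = z * g) (hg' : g' * z = z * g') :
    g * g' = g' * g := by
  have hi : ∀ w : G, w * z = z * w → w⁻¹ = w := fun w hw =>
    inv_eq_of_mul_eq_one_right (h.cent_sq hB hw)
  rw [← hi (g * g') (by rw [mul_assoc, hg', ← mul_assoc, hg, mul_assoc]), mul_inv_rev, hi g hg,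
    hi g' hg']

theorem az_conj {a : G} (ha : a ∈ M) : ∃ c ∈ M, c * z * c⁻¹ = a * z := by
  obtain ⟨c, hc, hcc⟩ := h.exists_sqrt ha
  refine ⟨c, hc, ?_⟩
  rw [mul_assoc, h.z_mul (inv_mem hc), inv_inv, ← mul_assoc, hcc]

theorem fix_rep {β : G ⧸ Nrm M} (hβz : z • β = β) (hβ : β ≠ base M) :
    ∃ u, orderOf u = 2 ∧ u ∉ Nrm M ∧ u * z = z * u ∧ u • base M = β := by
  obtain ⟨g, hg⟩ := MulAction.exists_smul_eq G (base M) β
  have hgN : g ∉ Nrm M := fun hn => hβ (hg ▸ smul_base.2 hn)
  obtain ⟨c, hc, u, hu, huN, huz, hucg⟩ := h.exists_swap hgN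
  have hub : u • base M = c • β := by
    rw [← hg, ← mul_smul, ← inv_self hu, inv_smul_eq_iff, ← mul_smul, ← mul_assoc]
    exact (smul_base.2 hucg).symm
  have hzub : z • u • base M = u • base M := by
    rw [← mul_smul, ← huz, mul_smul, smul_base.2 h.zN]
  rw [hub, ← mul_smul, h.z_mul hc, mul_smul, hβz, inv_smul_eq_iff, ← mul_smul] at hzub
  have hc1 : c = 1 := h.eq_one_of_sq hc (h.free_pt (mul_mem hc hc) hβ hzub.symm)
  refine ⟨u, hu, huN, huz, ?_⟩
  rw [hub, hc1, one_smul]

theorem card_points : Nat.card (G ⧸ Nrm M) = 1 + Nat.card M * Nat.card (Fx M z) := by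
  classical
  haveI := Fintype.ofFinite (G ⧸ Nrm M)
  let f : M × Fx M z → {β : G ⧸ Nrm M // β ≠ base M} := fun p =>
    ⟨(p.1 : G) • p.2.1, fun e => p.2.2.2 ((MulAction.injective (p.1 : G))
      (e.trans (smul_base.2 (Subgroup.le_normalizer p.1.2)).symm))⟩
  have hf : Function.Bijective f := by
    refine ⟨?_, ?_⟩
    · rintro ⟨c, β, hβz, hβ⟩ ⟨d, β', hβ'z, hβ'⟩ e
      have e' : (c : G) • β = (d : G) • β' := congrArg Subtype.val e
      have e2 : ((d : G)⁻¹ * c) • β = β' := by rw [mul_smul, e', inv_smul_smul]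
      set w := (d : G)⁻¹ * c with hw
      have hwM : w ∈ M := mul_mem (inv_mem d.2) c.2
      have h3 : (w * w) • β = β := by
        have h4 : w⁻¹ • β = w • β := by
          calc w⁻¹ • β = (w⁻¹ * z) • β := by rw [mul_smul, hβz]
            _ = z • w • β := by rw [← h.z_mul hwM, mul_smul]
            _ = w • β := by rw [e2, hβ'z]
        rw [mul_smul, ← h4, smul_inv_smul]
      have hw1 : w = 1 := h.eq_one_of_sq hwM (h.free_pt (mul_mem hwM hwM) hβ h3)
      rw [hw1, one_smul] at e2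
      subst e2
      have hcd : d = c := Subtype.ext (inv_mul_eq_one.1 hw1)
      subst hcd
      rfl
    · rintro ⟨β, hβ⟩
      obtain ⟨g, hg⟩ := MulAction.exists_smul_eq G (base M) β
      have hgN : g ∉ Nrm M := fun hn => hβ (hg ▸ smul_base.2 hn)
      obtain ⟨c, hc, u, hu, huN, huz, hucg⟩ := h.exists_swap hgN
      have hub : u • base M = c • β := by
        rw [← hg, ← mul_smul, ← inv_self hu, inv_smul_eq_iff, ← mul_smul, ← mul_assoc]
        exact (smul_base.2 hucg).symm
      refine ⟨(⟨c⁻¹, inv_mem hc⟩, ⟨u • base M, ?_, fun e => huN (smul_base.1 e)⟩), ?_⟩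
      · rw [← mul_smul, ← huz, mul_smul, smul_base.2 h.zN]
      · exact Subtype.ext (by show c⁻¹ • u • base M = β; rw [hub, inv_smul_smul])
  rw [← Nat.card_prod, Nat.card_congr (Equiv.ofBijective f hf), Nat.card_eq_fintype_card,
    Nat.card_eq_fintype_card, Fintype.card_subtype_compl, Fintype.card_subtype_eq]
  have : 1 ≤ Fintype.card (G ⧸ Nrm M) := Fintype.card_pos
  omega

theorem card_fixed : Nat.card {β : G ⧸ Nrm M // z • β = β} = Nat.card (Fx M z) + 1 := by
  classical
  haveI := Fintype.ofFinite (G ⧸ Nrm M)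
  rw [Nat.card_eq_fintype_card, Nat.card_eq_fintype_card, Fintype.card_subtype, Fintype.card_subtype,
    show (Finset.univ.filter fun β : G ⧸ Nrm M => z • β = β ∧ β ≠ base M) =
      (Finset.univ.filter fun β : G ⧸ Nrm M => z • β = β).erase (base M) by ext; simp [and_comm],
    Finset.card_erase_add_one (by
      simp only [Finset.mem_filter, Finset.mem_univ, true_and]
      exact smul_base.2 h.zN)]

theorem card_cent (hB : TwoOut M z) :
    Nat.card (Subgroup.centralizer ({z} : Set G)) = 2 * (Nat.card (Fx M z) + 1) := by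
  set E := Subgroup.centralizer ({z} : Set G)
  have hor : MulAction.orbit E (base M) = {β : G ⧸ Nrm M | z • β = β} := by
    ext β
    refine ⟨fun ⟨e, he⟩ => ?_, fun hβ => ?_⟩
    · have he' : (e : G) • base M = β := he
      show z • β = β
      rw [← he', ← mul_smul, ← Subgroup.mem_centralizer_singleton_iff.1 e.2, mul_smul,
        smul_base.2 h.zN]
    · by_cases hb : β = base M
      · exact hb ▸ MulAction.mem_orbit_self _
      obtain ⟨u, -, -, huz, hub⟩ := h.fix_rep hβ hb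
      exact ⟨⟨u, Subgroup.mem_centralizer_singleton_iff.2 huz⟩, hub⟩
  have hst : Nat.card (MulAction.stabilizer E (base M)) = 2 := by
    rw [← h.card_H hB]
    refine Nat.card_congr
      { toFun := fun e => ⟨((e : E) : G), smul_base.1 e.2, (e : E).2⟩
        invFun := fun x => ⟨⟨(x : G), x.2.2⟩, smul_base.2 x.2.1⟩
        left_inv := fun _ => rfl
        right_inv := fun _ => rfl }
  rw [← (MulAction.stabilizer E (base M)).card_mul_index, hst, MulAction.index_stabilizer, hor,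
    ← h.card_fixed]
  rfl

theorem two_le_fix (hB : TwoOut M z) : 2 ≤ Nat.card (Fx M z) := by
  classical
  obtain ⟨u, v, hu, hv, huN, hvN, huz, hvz, huv⟩ := hB
  haveI : Nontrivial (Fx M z) := ⟨⟨u • base M, by rw [← mul_smul, ← huz, mul_smul, smul_base.2 h.zN],
      fun e => huN (smul_base.1 e)⟩,
    ⟨v • base M, by rw [← mul_smul, ← hvz, mul_smul, smul_base.2 h.zN],
      fun e => hvN (smul_base.1 e)⟩, fun e => huv (smul_base.1 (by
        have e' : u • base M = v • base M := congrArg Subtype.val e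
        rw [mul_smul, ← e', ← mul_smul, mul_self hu, one_smul]))⟩
  exact Finite.one_lt_card

/-- Commuting conjugates of `z` with a common fixed point are equal. -/
theorem eq_of_common (hB : TwoOut M z) {e f : G} {β : G ⧸ Nrm M} (he : orderOf e = 2)
    (hf : orderOf f = 2) (hef : e * f = f * e) (h1 : e • β = β) (h2 : f • β = β) : e = f := by
  have _ := hB
  obtain ⟨g, rfl⟩ := MulAction.exists_smul_eq G (base M) β
  have he' : g⁻¹ * e * g ∈ Nrm M := smul_base.1 (by rw [mul_smul, mul_smul, h1, inv_smul_smul])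
  have hf' : g⁻¹ * f * g ∈ Nrm M := smul_base.1 (by rw [mul_smul, mul_smul, h2, inv_smul_smul])
  obtain ⟨a, ha, hea⟩ := h.invol_mem_N (by
    have := order_conj he g⁻¹; rwa [inv_inv] at this) he'
  obtain ⟨c, hc, hfc⟩ := h.invol_mem_N (by
    have := order_conj hf g⁻¹; rwa [inv_inv] at this) hf'
  have hac : a * z * (c * z) = c * z * (a * z) := by
    rw [← hea, ← hfc, show g⁻¹ * e * g * (g⁻¹ * f * g) = g⁻¹ * (e * f) * g by group, hef]
    group
  have key : ∀ x y : G, y ∈ M → x * z * (y * z) = x * y⁻¹ := fun x y hy => by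
    rw [show x * z * (y * z) = x * (z * y * z) by group, h.z_inv hy]
  rw [key a c hc, key c a ha] at hac
  have h3 : a * c⁻¹ = 1 := h.eq_one_of_sq (mul_mem ha (inv_mem hc)) (by
    nth_rewrite 1 [hac]; group)
  rw [mul_inv_eq_one] at h3
  rw [h3, ← hfc] at hea
  exact mul_left_cancel (mul_right_cancel hea)

theorem exists_fix_moved {α : G ⧸ Nrm M} (hα : z • α ≠ α) :
    ∃ e, IsConj z e ∧ e * z = z * e ∧ e ≠ z ∧ e • α = α := by
  obtain ⟨g, rfl⟩ := MulAction.exists_smul_eq G (base M) α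
  set k := g⁻¹ * z * g with hk
  have hkN : k ∉ Nrm M := fun hn => hα (by
    have := smul_base.2 hn
    rw [hk, mul_smul, mul_smul, inv_smul_eq_iff] at this
    exact this)
  have hk2 : orderOf k = 2 := by
    have := order_conj h.hz g⁻¹; rwa [inv_inv] at this
  obtain ⟨c, hc, u, hu, huN, huz, hn⟩ := h.exists_swap hkN
  set x := c⁻¹ * z * c with hx
  have hxN : x ∈ Nrm M := mul_mem (mul_mem (inv_mem (Subgroup.le_normalizer hc)) h.zN)
    (Subgroup.le_normalizer hc)
  have hkx : k * x * k = (u * c * k)⁻¹ * z * (u * c * k) := by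
    calc k * x * k = k⁻¹ * (c⁻¹ * z * c) * k := by rw [inv_self hk2]
      _ = k⁻¹ * c⁻¹ * (u⁻¹ * (u * z)) * c * k := by group
      _ = k⁻¹ * c⁻¹ * (u⁻¹ * (z * u)) * c * k := by rw [huz]
      _ = _ := by group
  have hx2 : orderOf x = 2 := by
    have := order_conj h.hz c⁻¹; rwa [inv_inv] at this
  have hkx2 : k * x * k = x := by
    rw [h.swap_inverts hk2 hkN hxN (by
      rw [hkx]; exact mul_mem (mul_mem (inv_mem hn) h.zN) hn), inv_self hx2]
  refine ⟨g * x * g⁻¹, isConj_iff.2 ⟨g * c⁻¹, by rw [hx]; group⟩, ?_, fun e => hα ?_, ?_⟩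
  · calc g * x * g⁻¹ * z = g * (x * k) * g⁻¹ := by rw [hk]; group
      _ = g * (k * x * k * k) * g⁻¹ := by rw [hkx2]
      _ = g * (k * x * (k * k)) * g⁻¹ := by group
      _ = g * (k * x) * g⁻¹ := by rw [mul_self hk2, mul_one]
      _ = _ := by rw [hk]; group
  · rw [← e, mul_smul, mul_smul, inv_smul_smul, smul_base.2 hxN]
  · rw [mul_smul, mul_smul, inv_smul_smul, smul_base.2 hxN]

/-- The conjugates of `z` other than `z` commuting with `z`. -/
theorem count_moved (hB : TwoOut M z) :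
    Nat.card (G ⧸ Nrm M) = (Nat.card (Fx M z) + 1) *
      (1 + Nat.card {e : G // IsConj z e ∧ e * z = z * e ∧ e ≠ z}) := by
  classical
  set S := {e : G // IsConj z e ∧ e * z = z * e ∧ e ≠ z}
  have hinv : ∀ {e : G}, IsConj z e → orderOf e = 2 := fun {e} he => by
    obtain ⟨g, rfl⟩ := isConj_iff.1 he; exact order_conj h.hz g
  let f : (Σ e : S, {α : G ⧸ Nrm M // (e : G) • α = α}) → {α : G ⧸ Nrm M // ¬ z • α = α} :=
    fun p => ⟨p.2.1, fun hz' => p.1.2.2.2
      (h.eq_of_common hB (hinv p.1.2.1) h.hz p.1.2.2.1 p.2.2 hz')⟩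
  have hf : Function.Bijective f := by
    refine ⟨?_, ?_⟩
    · rintro ⟨⟨e, he⟩, ⟨α, hα⟩⟩ ⟨⟨e', he'⟩, ⟨α', hα'⟩⟩ eq
      have e1 : α = α' := congrArg Subtype.val eq
      subst e1
      have e2 : e = e' := h.eq_of_common hB (hinv he.1) (hinv he'.1)
        (h.cent_comm hB he.2.1 he'.2.1) hα hα'
      subst e2
      rfl
    · rintro ⟨α, hα⟩
      obtain ⟨e, h1, h2, h3, h4⟩ := h.exists_fix_moved hα
      exact ⟨⟨⟨e, h1, h2, h3⟩, ⟨α, h4⟩⟩, rfl⟩
  have hfib : ∀ e : S, Nat.card {α : G ⧸ Nrm M // (e : G) • α = α} = Nat.card (Fx M z) + 1 := by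
    intro e
    obtain ⟨g, hg⟩ := isConj_iff.1 e.2.1
    rw [← h.card_fixed]
    have key : ∀ γ : G ⧸ Nrm M, (e : G) • γ = g • z • g⁻¹ • γ := fun γ => by
      rw [← hg, mul_smul, mul_smul]
    let eqv : {β : G ⧸ Nrm M // z • β = β} ≃ {α : G ⧸ Nrm M // (e : G) • α = α} :=
      { toFun := fun β => ⟨g • β.1, by rw [key, inv_smul_smul, β.2]⟩
        invFun := fun α => ⟨g⁻¹ • α.1, eq_inv_smul_iff.2 ((key α.1).symm.trans α.2)⟩
        left_inv := fun β => Subtype.ext (inv_smul_smul _ _)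
        right_inv := fun α => Subtype.ext (smul_inv_smul _ _) }
    exact (Nat.card_congr eqv).symm
  haveI := Fintype.ofFinite S
  rw [← Nat.card_congr (Equiv.sumCompl fun α : G ⧸ Nrm M => z • α = α), Nat.card_sum, h.card_fixed,
    ← Nat.card_congr (Equiv.ofBijective f hf), Nat.card_sigma]
  simp only [hfib, Finset.sum_const, Finset.card_univ, smul_eq_mul, Nat.card_eq_fintype_card]
  ring

/-- The two possibilities. -/
theorem arith (hB : TwoOut M z) : ∃ d : ℕ, 2 ≤ d ∧ Nat.card (Fx M z) + 1 = 2 ^ d ∧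
    ((Nat.card M = 2 ^ d + 1 ∧ Nat.card (G ⧸ Nrm M) = 2 ^ d * 2 ^ d) ∨
     (Nat.card M = 2 * 2 ^ d + 1 ∧ Nat.card (G ⧸ Nrm M) = 2 ^ d * (2 * 2 ^ d - 1) ∧
       ∀ e : G, e * z = z * e → e ≠ 1 → IsConj z e)) := by
  classical
  set r := Nat.card (Fx M z) with hr
  set m := Nat.card M with hm
  set s := Nat.card {e : G // IsConj z e ∧ e * z = z * e ∧ e ≠ z} with hs
  have h1 := h.card_points
  have h2 := h.count_moved hB
  rw [← hr, ← hm] at h1
  rw [← hr, ← hs, h1] at h2
  have hr2 := h.two_le_fix hB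
  rw [← hr] at hr2
  have hcE := h.card_cent hB
  rw [← hr] at hcE
  -- powers of 2
  haveI : Fact (Nat.Prime 2) := ⟨Nat.prime_two⟩
  obtain ⟨i, hi⟩ : ∃ i, Nat.card (Subgroup.centralizer ({z} : Set G)) = 2 ^ i :=
    IsPGroup.iff_card.1 fun e => ⟨1, Subtype.ext (by
      rw [pow_one, pow_two]
      exact h.cent_sq hB (Subgroup.mem_centralizer_singleton_iff.1 e.2))⟩
  rw [hcE] at hi
  obtain ⟨d, rfl⟩ : ∃ d, i = d + 1 := ⟨i - 1, by
    rcases i with _ | i
    · omega
    · omega⟩
  have hrd : r + 1 = 2 ^ d := by rw [pow_succ] at hi; omega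
  have hd2 : 2 ≤ d := by
    by_contra hlt
    push Not at hlt
    interval_cases d <;> omega
  -- the size of the class in the centraliser
  let ι : {e : G // IsConj z e ∧ e * z = z * e ∧ e ≠ z} →
      {e : Subgroup.centralizer ({z} : Set G) // ¬ ((e : G) = 1 ∨ (e : G) = z)} := fun e =>
    ⟨⟨e.1, Subgroup.mem_centralizer_singleton_iff.2 e.2.2.1⟩, fun he => he.elim (fun he1 => by
      obtain ⟨g, hg⟩ := isConj_iff.1 e.2.1
      exact ne_one h.hz (conj_eq_one_iff.1 (hg.trans he1))) e.2.2.2⟩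
  have hι : Function.Injective ι := fun e e' eq =>
    Subtype.ext (congrArg (fun w : {e : Subgroup.centralizer ({z} : Set G) //
      ¬ ((e : G) = 1 ∨ (e : G) = z)} => ((w : Subgroup.centralizer ({z} : Set G)) : G)) eq)
  have hrest : Nat.card {e : Subgroup.centralizer ({z} : Set G) // ¬ ((e : G) = 1 ∨ (e : G) = z)}
      = 2 * r := by
    haveI := Fintype.ofFinite (Subgroup.centralizer ({z} : Set G))
    rw [Nat.card_eq_fintype_card, Fintype.card_subtype_compl, ← Nat.card_eq_fintype_card, hcE,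
      Fintype.card_subtype,
      show (Finset.univ.filter fun e : Subgroup.centralizer ({z} : Set G) => (e : G) = 1 ∨ (e : G) = z)
        = {1, ⟨z, Subgroup.mem_centralizer_singleton_iff.2 rfl⟩} by
          ext w
          simp only [Finset.mem_filter, Finset.mem_univ, true_and, Finset.mem_insert,
            Finset.mem_singleton, Subtype.ext_iff]
          rfl,
      Finset.card_pair fun e => ne_one h.hz (congrArg Subtype.val e).symm]
    omega
  have hs2 : s ≤ 2 * r := hrest ▸ Nat.card_le_card_of_injective ι hι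
  have hm3 : 2 ≤ m := by
    obtain ⟨x, hx, hx1⟩ := (Subgroup.bot_or_exists_ne_one M).resolve_left h.ne
    haveI : Nontrivial M := ⟨⟨⟨x, hx⟩, 1, fun e => hx1 (congrArg Subtype.val e)⟩⟩
    exact Finite.one_lt_card
  -- `r * (m - 1 - s) = s`
  have hms : s + 1 ≤ m := by
    by_contra hlt
    push Not at hlt
    nlinarith
  obtain ⟨k, hk⟩ : ∃ k, m = s + 1 + k := ⟨m - (s + 1), by omega⟩
  have hrk : r * k = s := by rw [hk] at h2; nlinarith
  have hk2 : k ≤ 2 := by
    by_contra hlt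
    push Not at hlt
    nlinarith
  refine ⟨d, hd2, hrd, ?_⟩
  interval_cases k
  · omega
  · refine Or.inl ⟨by omega, ?_⟩
    rw [h1, show m = r + 2 by omega, ← hrd]; ring
  · refine Or.inr ⟨by omega, ?_, fun e he he1 => ?_⟩
    · rw [h1, show m = 2 * r + 3 by omega, ← hrd, show 2 * (r + 1) - 1 = 2 * r + 1 by omega]; ring
    by_cases hez : e = z
    · exact hez ▸ IsConj.refl z
    have hbij : Function.Bijective ι := (Nat.bijective_iff_injective_and_card ι).2
      ⟨hι, by rw [hrest]; omega⟩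
    obtain ⟨⟨e', he'⟩, heq⟩ := hbij.2 ⟨⟨e, Subgroup.mem_centralizer_singleton_iff.2 he⟩,
      fun h => h.elim he1 hez⟩
    have : e' = e := congrArg (fun w : {e : Subgroup.centralizer ({z} : Set G) //
      ¬ ((e : G) = 1 ∨ (e : G) = z)} => ((w : Subgroup.centralizer ({z} : Set G)) : G)) heq
    exact this ▸ he'.1

theorem index_M (hB : TwoOut M z) :
    M.index = 2 * Nat.card (G ⧸ Nrm M) ∧
      Nat.card G = 2 * Nat.card M * Nat.card (G ⧸ Nrm M) := by
  have h1 := (Nrm M).card_mul_index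
  rw [h.card_N2 hB, Subgroup.index_eq_card] at h1
  refine ⟨Nat.eq_of_mul_eq_mul_left (Nat.card_pos (α := M)) ?_, h1.symm⟩
  rw [M.card_mul_index, ← h1]
  ring

theorem case_psl (hB : TwoOut M z) {d : ℕ} (hd : 2 ≤ d) (hr : Nat.card (Fx M z) + 1 = 2 ^ d)
    (hm : Nat.card M = 2 * 2 ^ d + 1) (hn : Nat.card (G ⧸ Nrm M) = 2 ^ d * (2 * 2 ^ d - 1))
    (hcl : ∀ e : G, e * z = z * e → e ≠ 1 → IsConj z e) :
    ∃ (F : Type) (_ : Field F) (_ : Fintype F) (e : ℕ), 1 < e ∧ Fintype.card F = 2 ^ e ∧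
      IsCyclic ↥M ∧ Nat.card M = 2 ^ e + 1 ∧
      Nonempty (G ≃* Matrix.ProjectiveSpecialLinearGroup (Fin 2) F) := by
  classical
  obtain ⟨hidx, hG⟩ := h.index_M hB
  set t := 2 ^ d with ht
  have ht4 : 4 ≤ t := le_trans (by norm_num) (Nat.pow_le_pow_right (n := 2) (by norm_num) hd)
  set E := Subgroup.centralizer ({z} : Set G) with hE
  have hcE : Nat.card E = 2 * t := by rw [hE, h.card_cent hB, hr]
  have hI := h.counting.2.2
  rw [h.card_H hB, hidx, hm, hn] at hI
  obtain ⟨u', hu'⟩ : ∃ w, 2 * t - 1 = w := ⟨_, rfl⟩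
  rw [hu'] at hn hI
  have hu1 : u' + 1 = 2 * t := by omega
  have hu2 : 2 * (t * u') + 2 * t = (2 * t + 1) * u' + 1 := by linarith
  have hEidx : E.index = (2 * t + 1) * u' := by
    refine Nat.eq_of_mul_eq_mul_left (show 0 < 2 * t by omega) ?_
    rw [← hcE, E.card_mul_index, hcE, hG, hm, hn]
    ring
  have hconj : ∀ g : G, orderOf g = 2 → IsConj z g := by
    refine (PSLTwo.index_centralizer_le_card (x := z) (P := fun g => orderOf g = 2)
      fun a => order_conj h.hz a).2 ?_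
    rw [← hE, hEidx]
    linarith
  have hcard : Nat.card {g : G // orderOf g = 2} = (2 * t + 1) * u' := by linarith
  have hCt : ∀ w : G, orderOf w = 2 → ∃ g, w = g * z * g⁻¹ ∧
      ∀ x, x * w = w * x → g⁻¹ * x * g * z = z * (g⁻¹ * x * g) := by
    intro w hw
    obtain ⟨g, hg⟩ := isConj_iff.1 (hconj w hw)
    refine ⟨g, hg.symm, fun x hx => ?_⟩
    rw [← hg] at hx
    calc g⁻¹ * x * g * z = g⁻¹ * (x * (g * z * g⁻¹)) * g := by group
      _ = g⁻¹ * (g * z * g⁻¹ * x) * g := by rw [hx]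
      _ = _ := by group
  have hCsq : ∀ w : G, orderOf w = 2 → ∀ x, x * w = w * x → x * x = 1 := by
    intro w hw x hx
    obtain ⟨g, -, hg⟩ := hCt w hw
    have h1 := h.cent_sq hB (hg x hx)
    calc x * x = g * (g⁻¹ * x * g * (g⁻¹ * x * g)) * g⁻¹ := by group
      _ = 1 := by rw [h1, mul_one, mul_inv_cancel]
  -- simplicity
  haveI : Nontrivial G := ⟨z, 1, ne_one h.hz⟩
  haveI : IsSimpleGroup G := ⟨fun R hR => by
    by_cases h2 : ∃ e ∈ R, orderOf e = 2
    · refine Or.inr (eq_top_iff.2 fun g _ => ?_)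
      obtain ⟨e, heR, he⟩ := h2
      have hall : ∀ w : G, orderOf w = 2 → w ∈ R := fun w hw => by
        obtain ⟨g₁, hg₁⟩ := isConj_iff.1 (hconj e he)
        obtain ⟨g₂, hg₂⟩ := isConj_iff.1 (hconj w hw)
        rw [← hg₂, show g₂ * z * g₂⁻¹ = (g₂ * g₁⁻¹) * (g₁ * z * g₁⁻¹) * (g₂ * g₁⁻¹)⁻¹ by group, hg₁]
        exact hR.conj_mem e heR _
      have hMR : ∀ a ∈ M, a ∈ R := fun a ha => by
        rw [show a = a * z * z by rw [mul_assoc, mul_self h.hz, mul_one]]
        exact mul_mem (hall _ (h.az_invol ha)) (hall z h.hz)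
      by_cases hg : g ∈ Nrm M
      · rcases h.mem_N_cases hB hg with ha | ⟨a, ha, rfl⟩
        · exact hMR g ha
        · exact hall _ (h.az_invol ha)
      · obtain ⟨v, hv, hgv⟩ := h.exists_invol hg
        rw [show g = v * (g⁻¹ * v)⁻¹ by group]
        exact mul_mem (hall v hv) (inv_mem (hMR _ hgv))
    · refine Or.inl ((Subgroup.eq_bot_iff_forall _).2 fun x hx => ?_)
      push Not at h2
      have hsq1 : ∀ y ∈ R, y * y = 1 → y = 1 := fun y hy hy2 =>
        by_contra fun hy1 => h2 y hy (order_two hy1 hy2)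
      obtain ⟨u, v, hu, hv, huN, hvN, huz, hvz, huv⟩ := hB
      have hinv : ∀ e : G, orderOf e = 2 → ∀ y ∈ R, e * y * e = y⁻¹ := fun e he y hy => by
        refine inverts_of_free he (fun w hw => ?_) (fun w hw hew => hsq1 w hw
          (hCsq e he w hew.symm)) hy
        have := hR.conj_mem w hw e
        rwa [inv_self he] at this
      have hzu : orderOf (z * u) = 2 := h.invol_of_cent (by rw [mul_assoc, huz])
        fun hn => huN ((Subgroup.mul_mem_cancel_left _ h.zN).1 hn)
      have h3 := hinv (z * u) hzu x hx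
      have h4 : z * u * x * (z * u) = x := by
        calc z * u * x * (z * u) = z * (u * x * (z * u)) := by group
          _ = z * (u * x * u) * z := by rw [← huz]; group
          _ = x := by rw [hinv u hu x hx, hinv z h.hz _ (inv_mem hx), inv_inv]
      refine hsq1 x hx ?_
      rw [← eq_inv_iff_mul_eq_one]; exact h4.symm.trans h3⟩
  haveI : Fact (Nat.Prime 2) := ⟨Nat.prime_two⟩
  set q := 2 ^ (d + 1) with hq
  have hqt : q = 2 * t := by rw [hq, pow_succ, ht]; ring
  let F := GaloisField 2 (d + 1)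
  letI : Fintype F := Fintype.ofFinite F
  have hF : Fintype.card F = q := by
    rw [← Nat.card_eq_fintype_card]; exact GaloisField.card 2 (d + 1) (by omega)
  obtain ⟨iso⟩ := PSLTwo.iso_psl_of_two_elements (G := G) (F := F) (k := d + 1) (q := q) (by omega)
    hq (by rw [hG, hm, hn, hqt, hu']; ring)
    (fun w hw1 hw2 => by
      obtain ⟨g, rfl, -⟩ := hCt w (order_two hw1 hw2)
      have : Nat.card (Subgroup.centralizer ({g * z * g⁻¹} : Set G)) = Nat.card E := by
        rw [hE]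
        refine (Nat.card_congr
          { toFun := fun x => ⟨g * (x : G) * g⁻¹, Subgroup.mem_centralizer_singleton_iff.2 (by
              rw [show g * (x : G) * g⁻¹ * (g * z * g⁻¹) = g * ((x : G) * z) * g⁻¹ by group,
                Subgroup.mem_centralizer_singleton_iff.1 x.2]; group)⟩
            invFun := fun x => ⟨g⁻¹ * (x : G) * g, Subgroup.mem_centralizer_singleton_iff.2 (by
              have := Subgroup.mem_centralizer_singleton_iff.1 x.2
              calc g⁻¹ * (x : G) * g * z = g⁻¹ * ((x : G) * (g * z * g⁻¹)) * g := by group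
                _ = g⁻¹ * (g * z * g⁻¹ * (x : G)) * g := by rw [this]
                _ = _ := by group)⟩
            left_inv := fun x => Subtype.ext
              (show g⁻¹ * (g * (x : G) * g⁻¹) * g = x by group)
            right_inv := fun x => Subtype.ext
              (show g * (g⁻¹ * (x : G) * g) * g⁻¹ = x by group) }).symm
      rw [this, hcE, hqt])
    (by
      rw [hqt, hu', ← hcard]
      refine Nat.card_le_card_of_injective (fun g => (⟨g.1, ?_⟩ : {g : G // orderOf g = 2}))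
        fun a c e => Subtype.ext (congrArg (fun w : {g : G // orderOf g = 2} => (w : G)) e)
      obtain ⟨g, hg1, hgq⟩ := g
      rw [← hqt] at hgq
      obtain ⟨i, -, hi⟩ := (Nat.dvd_prime_pow Nat.prime_two).1 (orderOf_dvd_of_pow_eq_one (hq ▸ hgq))
      rcases i with _ | _ | i
      · exact absurd (orderOf_eq_one_iff.1 (by simpa using hi)) hg1
      · simpa using hi
      · exfalso
        have hwo : orderOf (g ^ 2 ^ (i + 1)) = 2 := by
          rw [orderOf_pow' g (by positivity), hi, Nat.gcd_eq_right (pow_dvd_pow 2 (by omega)),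
            Nat.pow_div (by omega) (by norm_num)]
          simp
        have := hCsq _ hwo g (by rw [← pow_succ', pow_succ])
        rw [← pow_two] at this
        have h5 := Nat.le_of_dvd (by norm_num) (orderOf_dvd_of_pow_eq_one this)
        rw [hi] at h5
        have : 2 ^ 2 ≤ 2 ^ (i + 1 + 1) := Nat.pow_le_pow_right (by norm_num) (by omega)
        omega)
    hF
  refine ⟨F, inferInstance, inferInstance, d + 1, by omega, hF, ?_, by rw [hm, pow_succ, ht]; ring,
    ⟨iso⟩⟩
  -- `M` is cyclic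
  haveI : CharP F 2 := inferInstance
  haveI : IsMulCommutative M := ⟨⟨fun a c => Subtype.ext (h.comm a.2 c.2)⟩⟩
  by_contra hcy
  obtain ⟨r, B, hr, hBM, hexp, hBc⟩ := Coprime.exists_elementary_sq (A := M) hcy
  haveI : Fact r.Prime := ⟨hr⟩
  have hr2 : r ≠ 2 := by
    rintro rfl
    have hd2 : 2 ∣ Nat.card M :=
      (dvd_pow_self 2 two_ne_zero).trans (hBc ▸ Subgroup.card_dvd_of_le hBM)
    omega
  let κ : G →* Matrix.SpecialLinearGroup (Fin 2) F :=
    (((QuotientGroup.quotientMulEquivOfEq (Recog.sl2_center_eq_bot (F := F))).trans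
      QuotientGroup.quotientBot).toMonoidHom).comp iso.toMonoidHom
  have hκ : Function.Injective κ :=
    ((QuotientGroup.quotientMulEquivOfEq (Recog.sl2_center_eq_bot (F := F))).trans
      QuotientGroup.quotientBot).injective.comp iso.injective
  have hB' : IsPGroup r B := IsPGroup.of_card hBc
  obtain ⟨R, hR⟩ := (hB'.map κ).exists_le_sylow
  haveI := S0262.result 2 r hr2 hr2 R
  haveI : IsCyclic (B.map κ) := isCyclic_of_injective _ (Subgroup.inclusion_injective hR)
  haveI : IsCyclic B := isCyclic_of_surjective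
    (B.equivMapOfInjective κ hκ).symm.toMonoidHom (B.equivMapOfInjective κ hκ).symm.surjective
  obtain ⟨g, hg⟩ := IsCyclic.exists_ofOrder_eq_natCard (α := B)
  have h1 : orderOf g ∣ r := orderOf_dvd_of_pow_eq_one (Subtype.ext (by simpa using hexp g g.2))
  rw [hg, hBc] at h1
  have := Nat.le_of_dvd hr.pos h1
  have := hr.two_le
  nlinarith

theorem case_dihedral (hB : TwoOut M z) {d : ℕ} (hd : 2 ≤ d)
    (hm : Nat.card M = 2 ^ d + 1) (hn : Nat.card (G ⧸ Nrm M) = 2 ^ d * 2 ^ d) :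
    ∃ (d : ℕ) (E : Subgroup G), 1 ≤ d ∧ E.Normal ∧ Cfsg.IsElementaryAbelian 2 E ∧
      Nat.card E = 2 ^ (2 * d) ∧
      E ⊓ Nrm M = ⊥ ∧ E ⊔ Nrm M = ⊤ ∧ Nonempty (↥(Nrm M) ≃* DihedralGroup (2 ^ d + 1)) := by
  classical
  obtain ⟨-, hG⟩ := h.index_M hB
  haveI : Fact (Nat.Prime 2) := ⟨Nat.prime_two⟩
  set t := 2 ^ d with ht
  have hteven : 2 ∣ t := dvd_pow_self 2 (by omega)
  have hMc : IsMulCommutative M := ⟨⟨fun a c => Subtype.ext (h.comm a.2 c.2)⟩⟩
  have hmodd : ¬ 2 ∣ Nat.card M := by omega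
  obtain ⟨S⟩ : Nonempty (Sylow 2 G) := inferInstance
  have hS : Nat.card (S : Subgroup G) = 2 * (t * t) := by
    have : 2 * (t * t) = 2 ^ (2 * d + 1) := by rw [ht, pow_succ, two_mul d, pow_add]; ring
    rw [this]
    exact SmallSimple.card_sylow_subgroup S (m := t + 1)
      (by rw [hG, hm, hn, ← this]; ring) (by omega)
  have hcopSM : (Nat.card (S : Subgroup G)).Coprime (Nat.card M) := by
    obtain ⟨i, hi⟩ := IsPGroup.iff_card.1 S.isPGroup'
    rw [hi]
    exact ((Nat.prime_two.coprime_iff_not_dvd).2 hmodd).pow_left i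
  have hcompl : Subgroup.IsComplement' (S : Subgroup G) M :=
    Subgroup.isComplement'_of_coprime (by rw [hS, hG, hn]; ring) hcopSM
  haveI : Group.IsSolvable G := Hall.CoprimeProduct.isSolvable (S : Subgroup G) M
    S.isPGroup'.isNilpotent (open scoped IsMulCommutative in inferInstance) hcopSM fun g => by
      obtain ⟨⟨⟨s, hs⟩, ⟨a, ha⟩⟩, hsa⟩ := hcompl.2 g
      exact ⟨s, hs, a, ha, hsa.symm⟩
  haveI : Nontrivial G := ⟨z, 1, ne_one h.hz⟩
  obtain ⟨A, hAn, hA, -, hmin⟩ := Hall.exists_minimal_normal_le (G := G) (N := ⊤) top_ne_bot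
  obtain ⟨hAc, p, hp, hpow⟩ := Hall.minimal_normal_solvable A hA hmin
  haveI : Fact p.Prime := ⟨hp⟩
  have hAcomm : ∀ x ∈ A, ∀ y ∈ A, x * y = y * x := fun x hx y hy =>
    congrArg Subtype.val (hAc.is_comm.comm (⟨x, hx⟩ : A) ⟨y, hy⟩)
  obtain rfl : p = 2 := by
    by_contra hp2
    have hpodd : Odd p := hp.odd_of_ne_two hp2
    obtain ⟨x, hx, hx1⟩ := (Subgroup.bot_or_exists_ne_one A).resolve_left hA
    have hxo : orderOf x = p := orderOf_eq_prime (hpow x hx) hx1
    have hpg : IsPGroup p (Subgroup.zpowers x) :=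
      IsPGroup.of_card (n := 1) (by rw [Nat.card_zpowers, hxo, pow_one])
    obtain ⟨β, hβ⟩ := hpg.nonempty_fixed_point_of_prime_not_dvd_card (G ⧸ Nrm M) (by
      rw [hn]
      exact fun hdvd => by
        rcases hp.dvd_mul.1 hdvd with h' | h' <;>
          exact hp2 ((Nat.prime_dvd_prime_iff_eq hp Nat.prime_two).1 (hp.dvd_of_dvd_pow h')))
    obtain ⟨g, rfl⟩ := MulAction.exists_smul_eq G (base M) β
    have hxg : x • g • base M = g • base M := hβ ⟨x, Subgroup.mem_zpowers x⟩
    set y := g⁻¹ * x * g with hy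
    have hyN : y ∈ Nrm M := smul_base.1 (by rw [hy, mul_smul, mul_smul, hxg, inv_smul_smul])
    have hyA : y ∈ A := by
      have := hAn.conj_mem x hx g⁻¹; rwa [inv_inv] at this
    have hy1 : y ≠ 1 := fun e => hx1 (by
      calc x = g * y * g⁻¹ := by rw [hy]; group
        _ = 1 := by rw [e, mul_one, mul_inv_cancel])
    have hmemM : ∀ w ∈ A, w ∈ Nrm M → w ∈ M := fun w hw hwN => by
      rcases h.mem_N_cases hB hwN with hwM | ⟨a, ha, rfl⟩
      · exact hwM
      exfalso
      have h2 := orderOf_dvd_of_pow_eq_one (hpow _ hw)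
      rw [h.az_invol ha] at h2
      exact Nat.not_even_iff_odd.2 hpodd (even_iff_two_dvd.2 h2)
    have hyM := hmemM y hyA hyN
    refine h.notN ⟨fun a ha k => ?_⟩
    have hky : k * y * k⁻¹ ∈ A := hAn.conj_mem y hyA k
    have hkyM : k * y * k⁻¹ ∈ M :=
      hmemM _ hky (h.cent_le hyM hy1 (hAcomm _ hky _ hyA))
    have := h.ti k fun e => hy1 (conj_eq_one_iff.1 ((Subgroup.eq_bot_iff_forall _).1 e _
      ⟨hkyM, y, hyM, rfl⟩))
    rw [← this]
    exact ⟨a, ha, rfl⟩
  -- `A` meets the normaliser trivially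
  have hzA : z ∉ A := fun hzA => by
    obtain ⟨x, hx, hx1⟩ := (Subgroup.bot_or_exists_ne_one M).resolve_left h.ne
    have h1 : x * x ∈ A := by
      have : x * x = x * z * x⁻¹ * z := by
        rw [show x * z * x⁻¹ * z = x * (z * x⁻¹ * z) by group, h.z_inv (inv_mem hx), inv_inv]
      rw [this]
      exact mul_mem (hAn.conj_mem z hzA x) hzA
    have h2 : x * x * (x * x) = 1 := by rw [← pow_two]; exact hpow _ h1
    exact hx1 (h.eq_one_of_sq hx (h.eq_one_of_sq (mul_mem hx hx) h2))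
  have hAN : A ⊓ Nrm M = ⊥ := (Subgroup.eq_bot_iff_forall _).2 fun w hw => by
    by_contra hw1
    rcases h.mem_N_cases hB hw.2 with hwM | ⟨a, ha, rfl⟩
    · exact hw1 (h.eq_one_of_sq hwM (by rw [← pow_two]; exact hpow _ hw.1))
    · obtain ⟨c, -, hcz⟩ := h.az_conj ha
      refine hzA ?_
      have := hAn.conj_mem _ hw.1 c⁻¹
      rwa [← hcz, inv_inv, show c⁻¹ * (c * z * c⁻¹) * c = z by group] at this
  have hfree : ∀ a ∈ M, a ≠ 1 → A ⊓ Subgroup.centralizer ({a} : Set G) = ⊥ := fun a ha ha1 =>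
    (Subgroup.eq_bot_iff_forall _).2 fun w hw => by_contra fun hw1 =>
      h.no_invol_cent ha ha1 (order_two hw1 (by rw [← pow_two]; exact hpow _ hw.1))
        (Subgroup.mem_centralizer_singleton_iff.1 hw.2)
  have hpA : IsPGroup 2 A := Hall.isPGroup_of_pow_eq_one hpow
  obtain ⟨i, hi⟩ := IsPGroup.iff_card.1 hpA
  -- `|A| = 1 + |M| * k`
  set K := {β : Fx M z // ∃ w ∈ A, w • base M = β.1}
  have hcardA : Nat.card A = 1 + Nat.card M * Nat.card K := by
    haveI := Fintype.ofFinite A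
    let f : M × K → {w : A // w ≠ 1} := fun p =>
      ⟨⟨(p.1 : G) * p.2.2.choose * (p.1 : G)⁻¹, hAn.conj_mem _ p.2.2.choose_spec.1 _⟩, fun e => by
        have h1 := p.2.2.choose_spec.2
        rw [conj_eq_one_iff.1 (congrArg Subtype.val e), one_smul] at h1
        exact p.2.1.2.2 h1.symm⟩
    have hval : ∀ p, ((f p).1 : G) • base M = (p.1 : G) • p.2.1.1 := fun p => by
      show ((p.1 : G) * p.2.2.choose * (p.1 : G)⁻¹) • base M = _
      rw [mul_smul, mul_smul, smul_base.2 (inv_mem (Subgroup.le_normalizer p.1.2)),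
        p.2.2.choose_spec.2]
    have hinjb : ∀ w ∈ A, ∀ w' ∈ A, w • base M = w' • base M → w = w' := fun w hw w' hw' e =>
      (inv_mul_eq_one.1 ((Subgroup.eq_bot_iff_forall _).1 hAN _ ⟨A.mul_mem (A.inv_mem hw') hw,
        smul_base.1 (by rw [mul_smul, e, inv_smul_smul])⟩)).symm
    have hf : Function.Bijective f := by
      refine ⟨fun p p' e => ?_, fun w => ?_⟩
      · have e' : (p.1 : G) • p.2.1.1 = (p'.1 : G) • p'.2.1.1 := by rw [← hval, ← hval, e]
        obtain ⟨c, ⟨β, hβz, hβ⟩, hK⟩ := p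
        obtain ⟨d, ⟨β', hβ'z, hβ'⟩, hK'⟩ := p'
        simp only at e'
        have e2 : ((d : G)⁻¹ * c) • β = β' := by rw [mul_smul, e', inv_smul_smul]
        set v := (d : G)⁻¹ * c with hv
        have hvM : v ∈ M := mul_mem (inv_mem d.2) c.2
        have h3 : (v * v) • β = β := by
          have h4 : v⁻¹ • β = v • β := by
            calc v⁻¹ • β = (v⁻¹ * z) • β := by rw [mul_smul, hβz]
              _ = z • v • β := by rw [← h.z_mul hvM, mul_smul]
              _ = v • β := by rw [e2, hβ'z]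
          rw [mul_smul, ← h4, smul_inv_smul]
        have hv1 : v = 1 := h.eq_one_of_sq hvM (h.free_pt (mul_mem hvM hvM) hβ h3)
        rw [hv1, one_smul] at e2
        subst e2
        have hcd : d = c := Subtype.ext (inv_mul_eq_one.1 hv1)
        subst hcd
        rfl
      · obtain ⟨⟨w, hw⟩, hw1⟩ := w
        have hwN : w ∉ Nrm M := fun hn => hw1 (Subtype.ext
          ((Subgroup.eq_bot_iff_forall _).1 hAN w ⟨hw, hn⟩))
        obtain ⟨c, hc, u, hu, huN, huz, hucw⟩ := h.exists_swap hwN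
        have hub : u • base M = (c * w * c⁻¹) • base M := by
          rw [mul_smul, smul_base.2 (inv_mem (Subgroup.le_normalizer hc)), ← inv_self hu,
            inv_smul_eq_iff, ← mul_smul, ← mul_assoc]
          exact (smul_base.2 hucw).symm
        refine ⟨(⟨c⁻¹, inv_mem hc⟩, ⟨⟨u • base M, ?_, fun e => huN (smul_base.1 e)⟩,
          c * w * c⁻¹, hAn.conj_mem w hw c, hub.symm⟩), Subtype.ext (Subtype.ext ?_)⟩
        · rw [← mul_smul, ← huz, mul_smul, smul_base.2 h.zN]
        · refine hinjb _ (f _).1.2 w hw ?_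
          rw [hval]
          show c⁻¹ • u • base M = w • base M
          rw [hub, mul_smul, mul_smul, inv_smul_smul,
            smul_base.2 (inv_mem (Subgroup.le_normalizer hc))]
    have := Nat.card_congr (Equiv.ofBijective f hf)
    rw [Nat.card_prod, Nat.card_eq_fintype_card (α := {w : A // w ≠ 1}),
      Fintype.card_subtype_compl, Fintype.card_subtype_eq, ← Nat.card_eq_fintype_card] at this
    have : 0 < Nat.card A := Nat.card_pos
    omega
  have hsup : Nat.card ↥(A ⊔ Nrm M) = Nat.card A * (2 * Nat.card M) := by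
    have h1 := Coprime.card_sup_mul_card_inf_of_le_normalizer (A := Nrm M) (N := A)
      (le_top.trans_eq (Subgroup.normalizer_eq_top_iff.2 hAn).symm)
    rw [sup_comm, inf_comm, hAN, Subgroup.card_bot, mul_one, h.card_N2 hB] at h1
    rw [h1, mul_comm]
  obtain ⟨c, hc⟩ := Subgroup.card_subgroup_dvd_card (A ⊔ Nrm M)
  rw [hsup, hG, hn] at hc
  have hcA : t * t = Nat.card A * c := by
    apply Nat.eq_of_mul_eq_mul_left (show 0 < 2 * Nat.card M by omega)
    rw [hc]; ring
  have hAone : 2 ≤ Nat.card A := by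
    have := (Subgroup.one_lt_card_iff_ne_bot A).2 hA
    omega
  have hc1 : c = 1 := by
    have ht0 : 0 < t := Nat.two_pow_pos d
    rw [hcardA, hm] at hcA hAone
    have hk0 : 1 ≤ Nat.card K := Nat.pos_of_ne_zero fun e => by simp [e] at hAone
    have hZ : (c : ℤ) - 1 = ((t : ℤ) + 1) * ((t : ℤ) - 1 - c * Nat.card K) := by
      have : (t : ℤ) * t = (1 + ((t : ℤ) + 1) * Nat.card K) * c := by exact_mod_cast hcA
      linarith
    have hc0 : 1 ≤ c := Nat.pos_of_ne_zero fun e => by rw [e, mul_zero] at hcA; nlinarith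
    have hck : c ≤ c * Nat.card K := Nat.le_mul_of_pos_right c hk0
    have hD : (t : ℤ) - 1 - c * Nat.card K = 0 := by
      rcases lt_trichotomy ((t : ℤ) - 1 - c * Nat.card K) 0 with hl | he | hg
      · nlinarith
      · exact he
      · have : (c : ℤ) ≤ (c : ℤ) * Nat.card K := by exact_mod_cast hck
        nlinarith
    rw [hD, mul_zero] at hZ
    omega
  rw [hc1, mul_one] at hcA hc
  have hAcard : Nat.card A = 2 ^ (2 * d) := by rw [← hcA, ht, two_mul, pow_add]
  have htop : A ⊔ Nrm M = ⊤ := Subgroup.eq_top_of_card_eq _ (by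
    rw [hsup, hG, hn, hcA]; ring)
  -- `M` is cyclic
  have hcyc : IsCyclic M := by
    by_contra hcy
    have h1 := Coprime.fixGen_eq (A := M) (K := A) hcy
      (le_top.trans_eq (Subgroup.normalizer_eq_top_iff.2 hAn).symm)
      (by rw [hAcard]; exact ((Nat.prime_two.coprime_iff_not_dvd).2 hmodd).symm.pow_right _)
    refine hA (eq_bot_iff.2 (h1 ▸ iSup₂_le fun a ha => ?_))
    rw [hfree a ha.1 ha.2]
  obtain ⟨a, ha⟩ := IsCyclic.exists_ofOrder_eq_natCard (α := M)
  have hao : orderOf (a : G) = t + 1 := by rw [Subgroup.orderOf_coe, ha, hm]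
  refine ⟨d, A, by omega, hAn, ⟨hAc, hpow⟩, hAcard, hAN, htop,
    Involution.iso_dihedral (Subgroup.le_normalizer a.2) h.zN hao (mul_self h.hz) ?_ ?_ ?_⟩
  · exact fun hz' => h.invol_not_mem h.hz ((Subgroup.zpowers_le.2 a.2) hz')
  · rw [inv_self h.hz]; exact h.z_inv a.2
  · rw [h.card_N2 hB, hm]

theorem caseB (hB : TwoOut M z) :
    (∃ (F : Type) (_ : Field F) (_ : Fintype F) (e : ℕ), 1 < e ∧ Fintype.card F = 2 ^ e ∧
      IsCyclic ↥M ∧ Nat.card M = 2 ^ e + 1 ∧
      Nonempty (G ≃* Matrix.ProjectiveSpecialLinearGroup (Fin 2) F)) ∨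
    (∃ (d : ℕ) (E : Subgroup G), 1 ≤ d ∧ E.Normal ∧ Cfsg.IsElementaryAbelian 2 E ∧
      Nat.card E = 2 ^ (2 * d) ∧
      E ⊓ Nrm M = ⊥ ∧ E ⊔ Nrm M = ⊤ ∧ Nonempty (↥(Nrm M) ≃* DihedralGroup (2 ^ d + 1))) := by
  obtain ⟨d, hd, hr, ⟨hm, hn⟩ | ⟨hm, hn, hcl⟩⟩ := h.arith hB
  · exact Or.inr (h.case_dihedral hB hd hm hn)
  · exact Or.inl (h.case_psl hB hd hr hm hn hcl)

end Hyp

end Cfsg.Agent.Lib.TICount
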